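import Cfsg.Agent.H42.PcDefs

/-! Project PC, piece Q2. -/

set_option autoImplicit false

namespace Cfsg.Agent.H37.PcQ2

open Subgroup Cfsg.Agent.H42.Pc

universe u

theorem sq_map {G H : Type u} [Group G] [Group H] (f : G →* H) (T : Subgroup G) :
    Sq (T.map f) = (Sq T).map f := by
  unfold Sq
  rw [MonoidHom.map_closure]
  congr 1
  ext x
  constructor
  · rintro ⟨_, ⟨w, hw, rfl⟩, rfl⟩
    exact ⟨w * w, ⟨w, hw, rfl⟩, map_mul _ _ _⟩
  · rintro ⟨_, ⟨w, hw, rfl⟩, rfl⟩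
    exact ⟨f w, ⟨w, hw, rfl⟩, map_mul _ _ _⟩

theorem dr_map {G H : Type u} [Group G] [Group H] (f : G →* H) (T : Subgroup G) (y : G) :
    Dr (T.map f) (f y) = (Dr T y).map f := by
  unfold Dr H42.Pc.Ext
  rw [map_commutator, Subgroup.map_sup, MonoidHom.map_zpowers]

theorem mem_map_iff {G H : Type u} [Group G] [Group H] {f : G →* H} {T : Subgroup G}
    (h : f.ker ≤ T) (y : G) : f y ∈ T.map f ↔ y ∈ T := by
  rw [← mem_comap, comap_map_eq_self h]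

theorem q2 : Q2Stmt.{u} := by
  intro G _ _ T U W _ h hW
  have hs := QuotientGroup.mk'_surjective W
  have kT : (QuotientGroup.mk' W).ker ≤ T := by rw [QuotientGroup.ker_mk']; exact hW
  have kU := kT.trans h.le
  refine ⟨⟨h.nT.map _ hs, h.nU.map _ hs, h.pU.map _, fun y => ?_, map_mono h.le, ?_, ?_, ?_⟩,
    index_map_eq U hs kU, sq_map _ T⟩
  · obtain ⟨y, rfl⟩ := hs y
    rw [← map_mul, mem_map_iff kT, mem_map_iff kU, h.mem]
  · rintro _ ⟨y, hy, rfl⟩ _ ⟨y', hy', rfl⟩ h1 h2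
    rw [mem_map_iff kT] at h1 h2
    obtain ⟨g, hg⟩ := h.cc y hy y' hy' h1 h2
    refine ⟨QuotientGroup.mk' W g, ?_⟩
    rw [← map_inv, ← map_mul, ← map_mul, ← MonoidHom.map_zpowers, ← MonoidHom.map_zpowers, hg]
  · rintro _ ⟨y, hy, rfl⟩
    rw [sq_map, ← map_mul]
    exact mem_map_of_mem _ (h.sq y hy)
  · rintro _ ⟨y, hy, rfl⟩ h1 _ ⟨w, hw, rfl⟩
    rw [mem_map_iff kT] at h1
    rw [dr_map, ← map_mul]
    exact mem_map_of_mem _ (h.dr y hy h1 w hw)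

end Cfsg.Agent.H37.PcQ2
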