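import Mathlib
import Cfsg.Agent.H9.C3Defs

/-!
C3-K2B: an element that inverts `x` does not centralize `VV x`, and the `S₃` lemma.
-/

set_option autoImplicit false

namespace Cfsg.Agent.H37.C3K2B

open Subgroup Cfsg.Agent.H62 Cfsg.Agent.H9.C3

universe u

variable {G : Type u} [Group G]

theorem exists_sylow [Finite G] {x : G} (hx : orderOf x = 3) :
    ∃ P : Sylow 3 G, x ∈ (P : Subgroup G) := by
  have : Fact (Nat.Prime 3) := ⟨Nat.prime_three⟩
  have h : IsPGroup 3 (zpowers x) := IsPGroup.of_card (n := 1) (by rw [Nat.card_zpowers, hx]; rfl)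
  obtain ⟨P, hP⟩ := h.exists_le_sylow
  exact ⟨P, hP (mem_zpowers x)⟩

theorem conj_mem (h : Kit1 G) {x y w : G} (hx : orderOf x = 3) (hy : x * y = y * x)
    (hw : w ∈ VV x) : y * w * y⁻¹ ∈ VV x := by
  rw [h.mem x hx] at hw ⊢
  refine ⟨?_, ?_⟩
  · have : y * w * y⁻¹ * (y * w * y⁻¹) = y * (w * w) * y⁻¹ := by group
    rw [this, hw.1]; group
  · have e1 : y⁻¹ * x = x * y⁻¹ := by
      calc y⁻¹ * x = y⁻¹ * (x * y) * y⁻¹ := by group
        _ = y⁻¹ * (y * x) * y⁻¹ := by rw [hy]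
        _ = x * y⁻¹ := by group
    calc y * w * y⁻¹ * x = y * w * (y⁻¹ * x) := by group
      _ = y * (w * x) * y⁻¹ := by rw [e1]; group
      _ = (y * x) * w * y⁻¹ := by rw [hw.2]; group
      _ = x * (y * w * y⁻¹) := by rw [← hy]; group

theorem ea (h : Kit1 G) {x : G} (hx : orderOf x = 3) : EA (VV x) :=
  fun g hg => ((h.mem x hx g).1 hg).1

theorem vcomm (h : Kit1 G) {x : G} (hx : orderOf x = 3) {a b : G} (ha : a ∈ VV x)
    (hb : b ∈ VV x) : a * b = b * a := by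
  have e := ea h hx
  have h1 := e.inv (mul_mem ha hb)
  rw [mul_inv_rev, e.inv ha, e.inv hb] at h1
  exact h1.symm

theorem ord3 (h : Kit1 G) (P : Sylow 3 G) {y : G} (hy : y ∈ (P : Subgroup G)) (h1 : y ≠ 1) :
    orderOf y = 3 := by
  have : Fact (Nat.Prime 3) := ⟨Nat.prime_three⟩
  exact orderOf_eq_prime (h.cube P y hy) h1

theorem inv3 [Finite G] (h : Kit1 G) : Inv3 G := by
  intro x n hx hn hV
  by_contra hc
  push Not at hc
  obtain ⟨P, hxP⟩ := exists_sylow hx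
  have hx1 : x ≠ 1 := by rintro rfl; simp at hx
  have hx3 : x ^ 3 = 1 := h.cube P x hxP
  obtain ⟨y, hyP, hyx⟩ : ∃ y ∈ (P : Subgroup G), y ∉ zpowers x := by
    by_contra hcon
    push Not at hcon
    have := card_le_of_le (show (P : Subgroup G) ≤ zpowers x from hcon)
    rw [h.c9 P, Nat.card_zpowers, hx] at this
    omega
  have hxy : x * y = y * x := h.comm P x hxP y hyP
  -- the conjugate of `y` by `n` centralizes `x`
  have hny : n * y * n⁻¹ * x = x * (n * y * n⁻¹) := by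
    have e : x = n * x⁻¹ * n⁻¹ := by
      have : n * x⁻¹ * n⁻¹ = (n * x * n⁻¹)⁻¹ := by group
      rw [this, hn, inv_inv]
    have e2 : y * x⁻¹ = x⁻¹ * y := by
      calc y * x⁻¹ = x⁻¹ * (x * y) * x⁻¹ := by group
        _ = x⁻¹ * (y * x) * x⁻¹ := by rw [hxy]
        _ = x⁻¹ * y := by group
    calc n * y * n⁻¹ * x = n * y * n⁻¹ * (n * x⁻¹ * n⁻¹) := by rw [← e]
      _ = n * (y * x⁻¹) * n⁻¹ := by group
      _ = n * (x⁻¹ * y) * n⁻¹ := by rw [e2]
      _ = (n * x⁻¹ * n⁻¹) * (n * y * n⁻¹) := by group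
      _ = x * (n * y * n⁻¹) := by rw [← e]
  obtain ⟨v, hv, p, hp, hvp⟩ := h.cx P x hxP hx1 _ hny
  have hxp : x * p = p * x := h.comm P x hxP p hp
  -- `y⁻¹ p` centralizes `VV x`
  have hcen : ∀ w ∈ VV x, w * (y⁻¹ * p) = y⁻¹ * p * w := by
    intro w hw
    have h1 : n * y * n⁻¹ * w * (n * y * n⁻¹)⁻¹ = y * w * y⁻¹ := by
      have a1 : n⁻¹ * w * n = w := by
        calc n⁻¹ * w * n = n⁻¹ * (w * n) := by group
          _ = n⁻¹ * (n * w) := by rw [hc w hw]
          _ = w := by group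
      calc n * y * n⁻¹ * w * (n * y * n⁻¹)⁻¹ = n * (y * (n⁻¹ * w * n) * y⁻¹) * n⁻¹ := by group
        _ = (n * (y * w * y⁻¹)) * n⁻¹ := by rw [a1]
        _ = y * w * y⁻¹ := by rw [hc _ (conj_mem h hx hxy hw)]; group
    have h2 : v * p * w * (v * p)⁻¹ = p * w * p⁻¹ := by
      calc v * p * w * (v * p)⁻¹ = (v * (p * w * p⁻¹)) * v⁻¹ := by group
        _ = p * w * p⁻¹ := by rw [vcomm h hx hv (conj_mem h hx hxp hw)]; group
    rw [hvp, h2] at h1
    have hyp : y⁻¹ * p = p * y⁻¹ := h.comm P _ (inv_mem hyP) p hp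
    calc w * (y⁻¹ * p) = y⁻¹ * (y * w * y⁻¹) * p := by group
      _ = y⁻¹ * (p * w * p⁻¹) * p := by rw [h1]
      _ = y⁻¹ * p * w := by group
  have hq : y⁻¹ * p ∈ zpowers x := by
    by_contra hq
    have hqP : y⁻¹ * p ∈ (P : Subgroup G) := mul_mem (inv_mem hyP) hp
    have hq1 : y⁻¹ * p ≠ 1 := fun e => hq (e ▸ one_mem _)
    apply hV
    rw [eq_bot_iff]
    intro w hw
    exact h.fpf x _ hx (ord3 h P hqP hq1) (h.comm P x hxP _ hqP) hq w hw (hcen w hw)
  set q := y⁻¹ * p with hqdef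
  have hqP : q ∈ (P : Subgroup G) := mul_mem (inv_mem hyP) hp
  have hq3 : q ^ 3 = 1 := h.cube P q hqP
  have hnq : n * q * n⁻¹ = q⁻¹ := by
    obtain ⟨k, hk⟩ := mem_zpowers_iff.1 hq
    rw [← hk, ← conj_zpow, hn, inv_zpow]
  have hpq : p = y * q := by rw [hqdef]; group
  -- `z = y q⁻¹`
  set z := y * q⁻¹ with hz
  have hzP : z ∈ (P : Subgroup G) := mul_mem hyP (inv_mem hqP)
  have hz1 : z ≠ 1 := by
    intro e
    apply hyx
    have : y = q := by rw [← mul_inv_eq_one]; exact e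
    rw [this]; exact hq
  have hz3 : z ^ 3 = 1 := h.cube P z hzP
  have hxz : x * z = z * x := h.comm P x hxP z hzP
  have hnz : n * z * n⁻¹ = v * z := by
    have e1 : q * q = q⁻¹ := by
      rw [eq_inv_iff_mul_eq_one, ← hq3]; simp only [pow_succ, pow_zero, one_mul]
    calc n * z * n⁻¹ = (n * y * n⁻¹) * (n * q * n⁻¹)⁻¹ := by rw [hz]; group
      _ = v * (y * q) * q := by rw [hvp, hnq, inv_inv, ← hpq]
      _ = v * (y * (q * q)) := by group
      _ = v * z := by rw [e1]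
  have hvz3 : (v * z) ^ 3 = 1 := by
    rw [← hnz, conj_pow, hz3]; group
  set w := z * v * z⁻¹ with hw
  have hwV : w ∈ VV x := conj_mem h hx hxz hv
  have hwV2 : z * w * z⁻¹ ∈ VV x := conj_mem h hx hxz hwV
  have hkey : v * w * (z * w * z⁻¹) = 1 := by
    have : (v * z) ^ 3 = v * w * (z * w * z⁻¹) * z ^ 3 := by
      rw [hw]; simp only [pow_succ, pow_zero, one_mul]; group
    rw [hz3, mul_one] at this
    rw [← this, hvz3]
  have hm : (w * n) * z = z * (w * n) := by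
    have e1 : w⁻¹ = w := (ea h hx).inv hwV
    have e2 : w * (v * z) * w⁻¹ = z := by
      calc w * (v * z) * w⁻¹ = (w * v) * (z * w⁻¹ * z⁻¹) * z := by group
        _ = v * w * (z * w * z⁻¹) * z := by rw [e1, vcomm h hx hwV hv]
        _ = z := by rw [hkey, one_mul]
    calc w * n * z = w * (n * z * n⁻¹) * w⁻¹ * (w * n) := by group
      _ = z * (w * n) := by rw [hnz, e2]
  obtain ⟨v', hv', p', hp', hvp'⟩ := h.cx P z hzP hz1 _ hm
  have hzo : orderOf z = 3 := ord3 h P hzP hz1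
  have hinv : v' * x * v'⁻¹ = x⁻¹ := by
    have e1 : p' * x * p'⁻¹ = x := by rw [h.comm P p' hp' x hxP]; group
    have e2 : w * x⁻¹ * w⁻¹ = x⁻¹ := by
      have := ((h.mem x hx w).1 hwV).2
      calc w * x⁻¹ * w⁻¹ = x⁻¹ * (x * w) * x⁻¹ * w⁻¹ := by group
        _ = x⁻¹ * (w * x) * x⁻¹ * w⁻¹ := by rw [this]
        _ = x⁻¹ := by group
    calc v' * x * v'⁻¹ = (v' * p') * x * (v' * p')⁻¹ := by
          conv_lhs => rw [← e1]
          group
      _ = w * (n * x * n⁻¹) * w⁻¹ := by rw [← hvp']; group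
      _ = x⁻¹ := by rw [hn, e2]
  have hmem : v' * (x * v'⁻¹ * x⁻¹) ∈ VV z :=
    mul_mem hv' (conj_mem h hzo hxz.symm (inv_mem hv'))
  have e3 : v' * (x * v'⁻¹ * x⁻¹) = x := by
    calc v' * (x * v'⁻¹ * x⁻¹) = (v' * x * v'⁻¹) * x⁻¹ := by group
      _ = (x ^ 3)⁻¹ * x := by rw [hinv]; group
      _ = x := by rw [hx3]; group
  rw [e3] at hmem
  have e4 : x * x = 1 := ea h hzo x hmem
  apply hx1
  calc x = x ^ 3 * (x * x)⁻¹ := by group
    _ = 1 := by rw [hx3, e4]; group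

theorem p3 [Finite G] (h : Kit1 G) : P3 G := by
  intro D a b t w hD h4 ha hb haD hbD ht hw htw hw1 h1 h2 h3 h4'
  set g := a * b with hg
  have g1 : g * t * g⁻¹ = t * w := by
    calc g * t * g⁻¹ = a * (b * t * b⁻¹) * a⁻¹ := by rw [hg]; group
      _ = t * w := by rw [h4', h1]
  have g2 : g * w * g⁻¹ = t := by
    calc g * w * g⁻¹ = a * (b * w * b⁻¹) * a⁻¹ := by rw [hg]; group
      _ = (a * w * a⁻¹) * (a * t * a⁻¹) := by rw [h3]; group
      _ = (w * t) * w := by rw [h1, h2]; group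
      _ = t * (w * w) := by rw [← htw]; group
      _ = t := by rw [hw, mul_one]
  have g3 : g ^ 3 * t = t * g ^ 3 := by
    have e1 : g * (t * w) * g⁻¹ = w := by
      calc g * (t * w) * g⁻¹ = (g * t * g⁻¹) * (g * w * g⁻¹) := by group
        _ = (t * w) * t := by rw [g1, g2]
        _ = w * (t * t) := by rw [htw]; group
        _ = w := by rw [ht, mul_one]
    calc g ^ 3 * t = g * (g * (g * t * g⁻¹) * g⁻¹) * g⁻¹ * g ^ 3 := by
          simp only [pow_succ, pow_zero, one_mul]; group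
      _ = t * g ^ 3 := by rw [g1, e1, g2]
  have hdvd : 3 ∣ orderOf g := by
    by_contra hnd
    have hco : Nat.Coprime 3 (orderOf g) := (Nat.Prime.coprime_iff_not_dvd Nat.prime_three).2 hnd
    obtain ⟨m, hm⟩ := exists_pow_eq_self_of_coprime hco
    have hc : Commute (g ^ 3) t := g3
    have hc2 : Commute g t := by rw [← hm]; exact hc.pow_left m
    apply hw1
    have : t * w = t := by rw [← g1, hc2.eq]; group
    simpa using this
  have hx : orderOf (g ^ 2) = 3 := by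
    rw [orderOf_pow' g (by norm_num)]
    rcases h.ord.o6 g hdvd with e | e <;> rw [e] <;> rfl
  have hag : a * g * a⁻¹ = g⁻¹ := by
    have ea' : a⁻¹ = a := inv_eq_of_mul_eq_one_right ha
    have eb' : b⁻¹ = b := inv_eq_of_mul_eq_one_right hb
    rw [hg, mul_inv_rev, eb', ← mul_assoc, ha, one_mul]
  have hax : a * g ^ 2 * a⁻¹ = (g ^ 2)⁻¹ := by rw [← conj_pow, hag, inv_pow]
  have hle : D ≤ VV (g ^ 2) := by
    intro d hd
    rw [h.mem _ hx]
    refine ⟨hD d hd, ?_⟩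
    have c1 : Commute a d := haD d hd
    have c2 : Commute b d := hbD d hd
    exact ((c1.mul_left c2).pow_left 2).symm.eq
  have hne : VV (g ^ 2) ≠ ⊥ := by
    intro e
    have := card_le_of_le hle
    rw [e, card_bot] at this
    omega
  have hc4 : Nat.card (VV (g ^ 2)) = 4 := (h.card _ hx).resolve_left hne
  have heq : D = VV (g ^ 2) := eq_of_le_of_card_ge hle (by rw [hc4]; exact h4)
  obtain ⟨v, hv, hav⟩ := inv3 h _ a hx hax hne
  exact hav (haD v (heq ▸ hv))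

theorem k2b : K2BStmt.{u} := fun _ _ _ h => ⟨inv3 h, p3 h⟩

end Cfsg.Agent.H37.C3K2B
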