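import Cfsg.Agent.H53.DgDefs

/-! # The Mackey formula for Harish-Chandra induction from a cuspidal character -/

set_option autoImplicit false

namespace Cfsg.Agent.H37.Dg

open Module Cfsg.Agent.H26 Cfsg.Agent.H78 Cfsg.Agent.H53.Dg
open scoped ComplexConjugate

variable {F V : Type} [Field F] [AddCommGroup V] [Module F V] {P : PForm F V}
  {G : Subgroup (V ≃ₗ[F] V)} {X Y : Submodule F V}

theorem ts_mp {g : V ≃ₗ[F] V} (hg : Sim P g) (h : TS P X) : TS P (mp g X) := by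
  refine ⟨?_, ?_⟩
  · rintro _ ⟨v, hv, rfl⟩
    exact hg.2 v (h.1 v hv)
  · rintro _ ⟨v, hv, rfl⟩ _ ⟨w, hw, rfl⟩
    exact hg.1 v w (h.2 hv w hw)

theorem rad_conj {x g : V ≃ₗ[F] V} (hx : Sim P x) (h : Rad P (mp x X) g) :
    Rad P X (x⁻¹ * g * x) := by
  refine ⟨fun v hv => ?_, fun v hv => ?_⟩
  · rw [PForm.mul_apply', PForm.mul_apply', h.1 (x v) ⟨v, hv, rfl⟩, PForm.inv_apply_apply]
  · obtain ⟨u, hu, e⟩ := h.2 (x v) (by
      rintro _ ⟨w, hw, rfl⟩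
      exact hx.1 v w (hv w hw))
    have := congrArg (fun z => x⁻¹ z) e
    simp only [LinearEquiv.coe_coe, map_sub, PForm.inv_apply_apply] at this
    rw [PForm.mul_apply', PForm.mul_apply', ← this]
    exact hu

theorem finrank_mp (g : V ≃ₗ[F] V) (X : Submodule F V) : finrank F (mp g X) = finrank F X :=
  LinearEquiv.finrank_map_eq g X

variable [Finite V]

theorem top_stab {g : V ≃ₗ[F] V} (hX : TS P X) (h : Top P X g) : g ∈ stabSub X :=
  mem_stabSub.2 fun v hv => by simpa using X.add_mem (h v (hX.2 hv)) hv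

theorem mem_UU (hY : TS P Y) {g : G} (h : Rad P Y g) : g ∈ UU P G Y := by
  have : (g : V ≃ₗ[F] V) ∈ stabSub (P.perp Y) :=
    mem_stabSub.2 fun v hv => by simpa using (P.perp Y).add_mem (hY.2 (h.2 v hv)) hv
  exact ⟨h, fun v hv => ⟨(this v).1 hv, ((inv_mem this) v).1 hv⟩⟩

variable [Finite F]

theorem van' (van : VanStmt) {Z : Submodule F V} {ψ : (X ≃ₗ[F] X) → ℂ} (K : Subgroup G)
    (Φ : G → ℂ) (hσ : ∀ a, P.σ a = a) (hE : P.E ≤ G) (hX : TS P X) (hY : TS P Y)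
    (hZ : Z = X ⊓ Y ∨ Z = X ⊓ P.perp Y) (h0 : Z ≠ ⊥) (h1 : Z ≠ X) (hψ : IsCusp ψ)
    (hK : K ≤ stab G X) (h2 : ∀ g : G, g.1 ∈ P.E → Rad P Y g → Top P X g → g ∈ K)
    (h3 : ∀ h ∈ K, ∀ g : G, g.1 ∈ P.E → Rad P Y g → Top P X g → Φ (h * g) = Φ h) :
    ∑ᶠ h : K, ψ (rs X h.1) * Φ h = 0 := by
  classical
  rw [← van F V P X Y Z ψ (K.map G.subtype) (fun h => if hh : h ∈ G then Φ ⟨h, hh⟩ else 0) hσ hX hY
    hZ h0 h1 hψ (by rintro _ ⟨h, hh, rfl⟩; exact hK hh)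
    (fun g hg a b => ⟨⟨g, hE hg⟩, h2 _ hg a b, rfl⟩) (by
      rintro _ ⟨h, hh, rfl⟩ g hg a b
      have e : G.subtype h ∈ G := h.2
      rw [dif_pos (mul_mem e (hE hg)), dif_pos e]
      exact h3 h hh ⟨g, hE hg⟩ hg a b)]
  refine finsum_eq_of_bijective (K.equivMapOfInjective _ G.subtype_injective)
    (MulEquiv.bijective _) fun h => ?_
  have e : ((K.equivMapOfInjective _ G.subtype_injective h : K.map G.subtype) : V ≃ₗ[F] V) = h.1 :=
    rfl
  rw [e, dif_pos h.1.2]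

theorem norm (ng : NgStmt) (van : VanStmt) (opp : OppStmt) : NormStmt := by
  intro F V _ _ _ _ _ P G X ψ φ ξ' w hσ hE hG hX h0 hψ c1 c2 hφ hξ hw hp
  refine ng G (stab G X) (fun h => ψ (rs X h) * φ h) ξ' w c1 c2 (fun h => h0 ?_) fun x => ?_
  · refine le_bot_iff.1 (hw ▸ le_inf le_rfl (hX.2.trans (PForm.perp_anti ?_)))
    rintro _ ⟨v, hv, rfl⟩
    exact (h v).1 hv
  have hX' := ts_mp (hG x x.2) hX
  have key : ∀ Z, (Z = X ⊓ mp x.1 X ∨ Z = X ⊓ P.perp (mp x.1 X)) → Z ≠ ⊥ → Z ≠ X →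
      mT (stab G X) (fun h => ψ (rs X h) * φ h) ξ' x = 0 := fun Z hZ z0 z1 => by
    let K : Subgroup G :=
      { carrier := {h | h ∈ stab G X ∧ x⁻¹ * h * x ∈ stab G X}
        one_mem' := ⟨one_mem _, by simp⟩
        mul_mem' := fun {a b} ha hb => ⟨mul_mem ha.1 hb.1, by
          simpa [mul_assoc] using mul_mem ha.2 hb.2⟩
        inv_mem' := fun {a} ha => ⟨inv_mem ha.1, by simpa [mul_assoc] using inv_mem ha.2⟩ }
    rw [← van' van K (fun h => φ h * conj (ξ' (x⁻¹ * h * x))) hσ hE hX hX' hZ z0 z1 hψ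
      (fun h hh => hh.1) (fun g _ a b => ⟨top_stab hX b, top_stab hX (rad_conj (hG x x.2) a).2⟩)
      fun h hh g hg a b => by
        rw [hφ h hh.1 g hg b, show x⁻¹ * (h * g) * x = x⁻¹ * h * x * (x⁻¹ * g * x) by group,
          hξ _ hh.2 _ (rad_conj (hG x x.2) a)]]
    exact finsum_congr fun h => mul_assoc _ _ _
  by_cases e1 : X ⊓ mp x.1 X = X
  · have : X = mp x.1 X := Submodule.eq_of_le_of_finrank_eq (inf_eq_left.1 e1) (finrank_mp _ _).symm
    exact Or.inl (mem_stabSub.2 fun v hv => this ▸ ⟨v, hv, rfl⟩)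
  by_cases e2 : X ⊓ mp x.1 X = ⊥
  swap
  · exact Or.inr (Or.inr (key _ (Or.inl rfl) e2 e1))
  by_cases e3 : X ⊓ P.perp (mp x.1 X) = X
  · exact Or.inr (Or.inr (hp x (PForm.le_perp_comm.1 (inf_eq_left.1 e3)) e2))
  by_cases e4 : X ⊓ P.perp (mp x.1 X) = ⊥
  swap
  · exact Or.inr (Or.inr (key _ (Or.inr rfl) e4 e3))
  obtain ⟨u, hu, r, e⟩ := (opp F V P X hσ hX).1 _ _ (ts_mp (hG w w.2) hX) hX' (finrank_mp _ _)
    (finrank_mp _ _) hw e4
  refine Or.inr (Or.inl ⟨⟨u, hE hu⟩, top_stab hX r.2, w⁻¹ * (⟨u, hE hu⟩ : G)⁻¹ * x,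
    mem_stabSub.2 fun v hv => ?_, by group⟩)
  obtain ⟨_, ⟨v', hv', rfl⟩, e'⟩ : x.1 v ∈ mp u (mp w.1 X) := e ▸ ⟨v, hv, rfl⟩
  change w.1⁻¹ (u⁻¹ (x.1 v)) ∈ X
  rw [← e']
  simp only [LinearEquiv.coe_coe, PForm.inv_apply_apply]
  exact hv'

theorem nofix (van : VanStmt) : NofixStmt := by
  intro F V _ _ _ _ _ P G X Y ψ φ hσ hE hG hX hY hψ hφ hd hT
  classical
  let _ := Fintype.ofFinite G
  have hS : ∀ g ∈ G, Sim P g := fun g hg =>
    ⟨fun x y h => by rw [PForm.isom_f (hG hg), h], fun x h => by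
      simpa [PForm.Sing] using P.Λ.add_mem (PForm.isom_h (hG hg) x) h⟩
  have key : ∀ x : G, ∑ u : UU P G Y,
      extendByZero (stab G X) (fun h => ψ (rs X h) * φ h) (x⁻¹ * u * x) = 0 := fun x => by
    have hY' := ts_mp (hS _ x⁻¹.2) hY
    have hd' := finrank_mp x⁻¹.1 Y
    obtain ⟨Z, hZ, z0, z1⟩ : ∃ Z, (Z = X ⊓ mp x⁻¹.1 Y ∨ Z = X ⊓ P.perp (mp x⁻¹.1 Y)) ∧ Z ≠ ⊥ ∧
        Z ≠ X := by
      have s := Submodule.finrank_sup_add_finrank_inf_eq X (mp x⁻¹.1 Y)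
      by_cases e : X ⊓ mp x⁻¹.1 Y = ⊥
      · refine ⟨_, Or.inr rfl, fun e' => ?_, fun e' => ?_⟩
        · have a := Submodule.finrank_sup_add_finrank_inf_eq X (P.perp (mp x⁻¹.1 Y))
          have b := P.finrank_perp (mp x⁻¹.1 Y)
          have c := Submodule.finrank_le (X ⊔ P.perp (mp x⁻¹.1 Y))
          rw [e', finrank_bot] at a
          omega
        · have a := inf_eq_left.1 e'
          have := hT (X ⊔ mp x⁻¹.1 Y) ⟨fun v hv => ?_, ?_⟩
          · rw [e, finrank_bot] at s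
            omega
          · obtain ⟨y, hy, z, hz, rfl⟩ := Submodule.mem_sup.1 hv
            exact (hX.1 y hy).add (hY'.1 z hz) (a hy z hz)
          · rw [PForm.perp_sup]
            exact sup_le (le_inf hX.2 a) (le_inf (PForm.le_perp_comm.1 a) hY'.2)
      · refine ⟨_, Or.inl rfl, e, fun e' => ?_⟩
        have := Submodule.finrank_mono (inf_eq_left.1 e')
        omega
    let K : Subgroup G := stab G X ⊓ (UU P G Y).comap (MulAut.conj x).toMonoidHom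
    have := van' van K φ hσ hE hX hY' hZ z0 z1 hψ inf_le_left (fun g _ a b =>
      ⟨top_stab hX b, mem_UU hY (by simpa using rad_conj (hS _ x⁻¹.2) a)⟩)
      fun h hh g hg _ b => hφ h hh.1 g hg b
    rw [← this, finsum_eq_sum_of_fintype]
    symm
    refine Finset.sum_of_injOn (fun h : K => (⟨x * h * x⁻¹, h.2.2⟩ : UU P G Y))
      (fun a _ b _ e => Subtype.ext (by simpa using congrArg Subtype.val e)) (fun _ _ => by simp) (fun u _ hu => ?_)
      fun h _ => ?_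
    · refine Function.extend_apply' _ _ _ fun ⟨h, e⟩ => hu ⟨⟨h, h.2, ?_⟩, by simp, ?_⟩
      · simp [e, mul_assoc]
      · simp [e, mul_assoc]
    · have e : x⁻¹ * (x * h * x⁻¹) * x = h := by group
      rw [e, H14.extendByZero_of_mem _ _ h.2.1]
  rw [finsum_eq_sum_of_fintype]
  simp only [ind, indFun]
  rw [← Finset.mul_sum, Finset.sum_comm, Finset.sum_congr rfl fun x _ => key x]
  simp

end Cfsg.Agent.H37.Dg
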