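import Mathlib
import Cfsg.Agent.H50.E72Defs
import Cfsg.Agent.H34.SSC

/-! The torus `(q + 1)²` of `G₂(8)` with an element of order three of its Weyl group. -/

set_option autoImplicit false

namespace Cfsg.Agent.H37.E72Emb8

open Equiv Cfsg.Lie H37 H40 H34 H29 Multiplicative H50.E72

universe u

theorem fieldHom_nWg {D : ChevalleyDatum} (C : Cert D) {k : Type*} [Field k] (σ : k →+* k)
    (l : List (Fin D.rank)) : C.V.fieldHom σ (C.nWg k l) = C.nWg k l := by
  refine Subtype.ext ?_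
  rw [C.V.coe_fieldHom]
  show Matrix.GeneralLinearGroup.map σ (Cert.nW k D l) = Cert.nW k D l
  induction l with
  | nil => exact map_one _
  | cons i l ih => rw [Cert.nW_cons, map_mul, ih, C.V.map_nG, map_one]

theorem cfg_of {Γ G : Type*} [Group Γ] [Group G] (j : Γ →* G) (hj : Function.Injective j)
    (x : Multiplicative E9 →* G) (w : G) (hx : Function.Injective x) (h1 : ∀ e, x e ∈ j.range)
    (h2 : w ∈ j.range) (h3 : ∀ e : E9, w * x (ofAdd e) * w⁻¹ = x (ofAdd ![-e 0 - e 1, e 0])) :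
    ∃ (x : Multiplicative E9 →* Γ) (w : Γ),
      Function.Injective x ∧ ∀ e : E9, w * x (ofAdd e) * w⁻¹ = x (ofAdd ![-e 0 - e 1, e 0]) := by
  obtain ⟨w, rfl⟩ := h2
  let y : Multiplicative E9 →* Γ :=
    (MonoidHom.ofInjective hj).symm.toMonoidHom.comp (x.codRestrict _ h1)
  have hy : ∀ e, j (y e) = x e := fun e => MonoidHom.apply_ofInjective_symm hj _
  refine ⟨y, w, fun a b h => hx (by rw [← hy, h, hy]), fun e => hj ?_⟩
  rw [map_mul, map_mul, map_inv, hy, hy, h3]

def ρ (e : E9) : E9 := ![-e 0 + e 1, -(3 * e 0) + 2 * e 1]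

theorem wordMat : WordMat chevG2 [[2, -1], [-3, 2]] [0, 1] [[-1, -3], [1, 2]] := by decide +kernel

theorem emb8 : Emb8Stmt.{u} := by
  intro F _ _ hq
  let k := AlgebraicClosure F
  let ι : F →+* k := algebraMap F k
  let C : Cert chevG2 := cert (by simp)
  obtain ⟨h8, φ, hφ⟩ := exists_frob_ext ι (q := 8) (m := 1) (hq ▸ FiniteField.isPrimePow_card F)
    (by rw [hq, pow_one])
  have hι : ∀ x, φ x = x ↔ ∃ y, ι y = x := fun x => by rw [hφ, ← hq, mem_range_of_pow_card]
  obtain ⟨ζ, hζ, -⟩ := exists_prim_unit k (N := 9) (by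
    rw [show (9 : ℕ) = 8 + 1 from rfl, Nat.cast_add, h8]; simp)
  let χ : AddChar (ZMod 9) kˣ := AddChar.zmodChar 9 hζ.pow_eq_one
  have hχ : ∀ a, χ a = 1 → a = 0 := fun a h => by
    rw [AddChar.zmodChar_apply, hζ.pow_eq_one_iff_dvd] at h
    exact (ZMod.val_eq_zero a).1 (Nat.eq_zero_of_dvd_of_lt h (ZMod.val_lt a))
  let c : Multiplicative E9 →* (Fin chevG2.rank → kˣ) :=
    { toFun := fun e i => χ (toAdd e i)
      map_one' := funext fun i => χ.map_zero_eq_one
      map_mul' := fun a b => funext fun i => χ.map_add_eq_mul _ _ }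
  let T : Multiplicative E9 →* chevG2.group k := (C.tg k).comp c
  have hT : Function.Injective T := (injective_iff_map_eq_one _).2 fun e he => by
    have := C.pow_eq_one_of_inv invG2 _ he
    rw [pow_one] at this
    exact toAdd.injective (funext fun i => hχ _ (congrFun this i))
  obtain ⟨l, -, hA⟩ := C.rep_of_wordMat wordMat
  let n := C.nWg k l
  have hn : n ∈ (C.split k).N := C.nWg_mem l
  have key : ∀ e, n * T (ofAdd (ρ e)) * n⁻¹ = T (ofAdd e) := fun e => by
    refine Eq.trans ?_ (Cert.conj_tg hn (C.ν_nWg (k := k) l ▸ hA) (c (ofAdd e)))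
    congr 2
    refine congrArg (C.tg k) (funext fun i : Fin 2 => ?_)
    show χ (ρ e i) = ∏ j : Fin 2, χ (e j) ^ gt [[-1, -3], [1, 2]] j i
    rw [Fin.prod_univ_two, ← AddChar.map_zsmul_eq_zpow, ← AddChar.map_zsmul_eq_zpow,
      ← AddChar.map_add_eq_mul]
    congr 1
    fin_cases i <;> simp [ρ, gt]
  have hφT : ∀ e, C.V.fieldHom φ (T (ofAdd e)) = T (ofAdd (ρ (ρ (ρ e)))) := fun e => by
    show C.V.fieldHom φ (C.tg k _) = C.tg k _
    rw [C.fieldHom_tg_pow hφ, ← map_pow, ← ofAdd_nsmul]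
    congr 3
    revert e
    decide
  have hφn : C.V.fieldHom φ n = n := fieldHom_nWg C φ l
  obtain ⟨h, hh⟩ := C.lang_field (by decide) hφ (n * n * n)
  obtain ⟨j, hj, hj'⟩ := exists_transport _ (C.V.fieldHom_injective ι) h
  have hr : ∀ y, n * n * n * C.V.fieldHom φ y * (n * n * n)⁻¹ = y → y ∈ j.range := fun y hy => by
    have := C.pow_mem_range hι (by decide) hφ (C.pow_eq_one_of_inv invG2)
      ((fix_conj_iff _ hh y).2 hy)
    rwa [Nat.gcd_one_left, pow_one, ← hj'] at this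
  let L : Multiplicative E9 →* Multiplicative E9 :=
    { toFun := fun e => ofAdd ![-toAdd e 0, -toAdd e 0 + toAdd e 1]
      map_one' := by decide
      map_mul' := fun a b => congrArg ofAdd (funext fun i => by fin_cases i <;> simp <;> ring) }
  refine cfg_of j hj (T.comp L) (n * n)⁻¹ (hT.comp (by decide)) (fun e => hr _ ?_)
    (hr _ (by rw [map_inv, map_mul, hφn]; group)) fun e => ?_
  · show _ * C.V.fieldHom φ (T (ofAdd _)) * _ = T (ofAdd _)
    rw [hφT]
    conv_rhs => rw [← key, ← key, ← key]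
    group
  · show _ * T (ofAdd _) * _ = T (ofAdd _)
    conv_lhs => rw [← key, ← key]
    have : ∀ e : E9, ρ (ρ ![-e 0, -e 0 + e 1]) =
        ![-![-e 0 - e 1, e 0] 0, -![-e 0 - e 1, e 0] 0 + ![-e 0 - e 1, e 0] 1] := by decide
    simp only [toAdd_ofAdd]
    rw [this]
    group

end Cfsg.Agent.H37.E72Emb8
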