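import Mathlib
import Cfsg.Agent.H6.E82Defs

/-! Bilinear maps on modules with small composition factors, the decomposition of a module with
two Steinberg factors, and its impossibility for the adjoint module. -/

set_option autoImplicit false

namespace Cfsg.Agent.H37.E82Bil

open Module H82 H50.SL2S H6.E82
open scoped MatrixGroups

theorem step_span (mono : MonoStmt) {p : Par} {W : Type} [AddCommGroup W] [Module K W]
    {ρ : SL →* Module.End K W} {U U' : Submodule K W} {r : ℕ} (h : Step ρ p U U' r) :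
    ∃ v : Fin (dS r) → W, (∀ i, v i ∈ U') ∧
      ∀ a ∈ U', ∃ u ∈ U, ∃ s ∈ Submodule.span K (Set.range v), a = u + s := by
  obtain ⟨hr, hle, -, Φ, -, hmap, hker⟩ := h
  let b := Module.finBasisOfFinrankEq K (SP p r) ((mono p).2 r hr).2.1
  have h1 : ∀ i, ∃ v ∈ U', Φ v = b i := fun i => hmap.ge (b i).2
  choose v hv hv' using h1
  refine ⟨v, hv, fun a ha => ?_⟩
  have h2 : Φ a ∈ SP p r := hmap.le ⟨a, ha, rfl⟩
  have hs : ∑ i, b.repr ⟨_, h2⟩ i • v i ∈ U' := U'.sum_mem fun i _ => U'.smul_mem _ (hv i)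
  refine ⟨a - ∑ i, b.repr ⟨_, h2⟩ i • v i, (hker _ (U'.sub_mem ha hs)).1 ?_, _,
    Submodule.sum_mem _ fun i _ => Submodule.smul_mem _ _ (Submodule.subset_span ⟨i, rfl⟩),
    (sub_add_cancel _ _).symm⟩
  have h3 := congrArg Subtype.val (b.sum_repr ⟨_, h2⟩)
  rw [map_sub, map_sum, sub_eq_zero]
  refine h3.symm.trans ?_
  simp only [map_smul, hv', Submodule.coe_sum, Submodule.coe_smul]

theorem bil (mono : MonoStmt) : BilStmt := by
  intro p W _ _ _ ρ β P hβ hP hN
  have key : ∀ U L, Ser ρ p U L → (∀ r ∈ L, dS r ≤ 4) → ∀ U' L', Ser ρ p U' L' →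
      (∀ r ∈ L', dS r ≤ 4) → ∀ a ∈ U, ∀ b ∈ U', β a b = 0 := by
    intro U L h
    induction h with
    | nil => intro _ _ _ _ _ a ha b _; rw [(Submodule.mem_bot K).1 ha, map_zero]; rfl
    | @cons U U1 L r _ hs ih =>
      intro hL U' L' h'
      have ih1 := ih fun r hr => hL r (List.mem_cons_of_mem _ hr)
      induction h' with
      | nil => intro _ a _ b hb; rw [(Submodule.mem_bot K).1 hb, map_zero]
      | @cons U' U1' L' r' h0 hs' ih' =>
        intro hL'
        have ih2 := ih' fun r hr => hL' r (List.mem_cons_of_mem _ hr)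
        have ih3 := ih1 _ _ (.cons h0 hs') hL'
        obtain ⟨v, hv, hsp⟩ := step_span mono hs
        obtain ⟨v', -, hsp'⟩ := step_span mono hs'
        have h1 : Submodule.map₂ β U1 U1' ≤
            Submodule.span K (Set.range fun x : Fin (dS r) × Fin (dS r') => β (v x.1) (v' x.2)) := by
          refine Submodule.map₂_le.2 fun a ha b hb => ?_
          obtain ⟨u, hu, s, hs1, rfl⟩ := hsp a ha
          rw [map_add, LinearMap.add_apply, ih3 u hu b hb, zero_add]
          obtain ⟨u', hu', s', hs1', rfl⟩ := hsp' b hb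
          rw [map_add, ih2 s (Submodule.span_le.2 (Set.range_subset_iff.2 hv) hs1) u' hu', zero_add,
            ← Set.image2_range (fun x y => β x y), ← Submodule.map₂_span_span]
          exact Submodule.apply_mem_map₂ β hs1 hs1'
        have h2 : Submodule.map₂ β U1 U1' = ⊥ := by
          by_contra e
          have h3 := hN _ (Submodule.map₂_le.2 fun a _ b _ => hP a b) (fun g x hx => by
            refine (Submodule.map₂_le (p := U1) (q := U1')
              (r := (Submodule.map₂ β U1 U1').comap (ρ g))).2 (fun a ha b hb => ?_) hx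
            rw [Submodule.mem_comap, ← hβ]
            exact Submodule.apply_mem_map₂ β (hs.2.2.1 g a ha) (hs'.2.2.1 g b hb)) e
          have h4 := (Submodule.finrank_mono h1).trans (finrank_range_le_card _)
          have h5 := hL r List.mem_cons_self
          have h6 := hL' r' List.mem_cons_self
          rw [Fintype.card_prod, Fintype.card_fin, Fintype.card_fin] at h4
          nlinarith
        intro a ha b hb
        exact (Submodule.mem_bot K).1 (h2 ▸ Submodule.apply_mem_map₂ β ha hb)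
  exact fun U L h hL => key U L h hL U L h hL

theorem fit (ser : SerStmt) (mult : MultStmt) (uni : UniStmt) (edec : EdecStmt) (fit1 : Fit1Stmt)
    (fit2 : Fit2Stmt) (fit3 : Fit3Stmt) : FitStmt := by
  intro p W _ _ _ ρ B hB m hm h63 hd
  obtain ⟨W0, P, i0, iP, hc, ho, hnil, hsurj, hinj⟩ := fit1 W ρ B hB
  have ex : ∀ U, Inv ρ U → ∃ L, Ser ρ p U L := fun U hU =>
    ((ser p W ρ).2.2 ⊥ [] U .nil bot_le hU).imp' (fun L => L ++ []) fun _ h => h
  have top : ∀ L, Ser ρ p ⊤ L → ∀ r < 64, m r = L.count r := fun L hL =>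
    uni m _ (fun e he => (hm.1 e he).symm.trans ((mult p W ρ _ _ hL).1.1 e he))
      fun e he => (hm.2 e he).symm.trans ((mult p W ρ _ _ hL).1.2 e he)
  have le : ∀ U L, Ser ρ p U L → ∀ r < 64, L.count r ≤ m r := fun U L hL r hr => by
    obtain ⟨L', h⟩ := (ser p W ρ).2.2 U L ⊤ hL le_top fun _ _ _ => Submodule.mem_top
    rw [top _ h r hr, List.count_append]
    exact Nat.le_add_left _ _
  obtain ⟨L0, hL0⟩ := ex W0 i0
  have n63 := (fit2 p W ρ _ _ hL0).1 hnil
  refine ⟨W0, P, i0, iP, hc, ho, fun e => ?_, ⟨L0, hL0, fun r hr => ?_⟩, fun N hNP iN hN => ?_, ?_⟩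
  · have e' : W0 = ⊤ := by simpa [e] using hc.sup_eq_top
    have := top L0 (e' ▸ hL0) 63 (by norm_num)
    rw [h63, List.count_eq_zero_of_not_mem n63] at this
    omega
  · have h1 := ((ser p W ρ).2.1 _ _ hL0).2 r hr
    have h2 : r ≠ 63 := fun e => n63 (e ▸ hr)
    have h3 := le _ _ hL0 r h1
    have h4 := List.count_pos_iff.2 hr
    exact hd r (by omega) (by omega)
  · obtain ⟨L, hL⟩ := ex N iN
    have h1 := (fit2 p W ρ _ _ hL).2 fun b hb => hinj b (hNP hb)
    have h2 := (mult p W ρ _ _ hL).2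
    rcases L with _ | ⟨r, L⟩
    · exact absurd (Submodule.finrank_eq_zero.1 h2) hN
    · rw [h2, List.map_cons, List.sum_cons, h1 r List.mem_cons_self, show dS 63 = 64 by decide]
      exact Nat.le_add_right _ _
  · obtain ⟨L, hL⟩ := ex P iP
    have h1 := (fit2 p W ρ _ _ hL).2 hinj
    obtain ⟨h2, h3⟩ := fit3 p W ρ _ _ hL h1
    have h4 := le _ _ hL 63 (by norm_num)
    rw [List.count_eq_length.2 fun r hr => (h1 r hr).symm, h63] at h4
    refine ⟨_, h2.trans h4, h3, fun b hb => ?_⟩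
    obtain ⟨c, hc', rfl⟩ := hsurj b hb
    exact (edec W ρ).2.2.2 P iP c hc'

theorem st (brb : BrbStmt) (tau : TauStmt) (der : DerStmt) (tri : TriStmt) (bil : BilStmt) :
    StStmt := by
  rintro p ρ hF hbr hfx W0 P ⟨i0, iP, hc, ho, hP, ⟨L, hL, hd⟩, hN, hG⟩
  obtain ⟨alt, sym, -⟩ := brb
  obtain ⟨ks, ka, kn, -⟩ := tau
  let π : V →ₗ[K] V := P.subtype ∘ₗ P.projectionOnto W0 hc.symm
  have πP : ∀ v, π v ∈ P := fun v => (P.projectionOnto W0 hc.symm v).2
  have π1 : ∀ q ∈ P, π q = q := fun q hq =>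
    congrArg Subtype.val (Submodule.projectionOnto_apply_left hc.symm ⟨q, hq⟩)
  have π0 : ∀ w ∈ W0, π w = 0 := fun w hw =>
    congrArg Subtype.val (Submodule.projectionOnto_apply_of_mem_right hc.symm hw)
  have dec : ∀ v : V, ∃ w ∈ W0, ∃ q ∈ P, w + q = v := fun v =>
    Submodule.mem_sup.1 (hc.sup_eq_top.ge Submodule.mem_top)
  have πρ : ∀ g v, π (ρ g v) = ρ g (π v) := fun g v => by
    obtain ⟨w, hw, q, hq, rfl⟩ := dec v
    rw [map_add, map_add, map_add, π0 _ (i0 g w hw), π0 w hw, π1 _ (iP g q hq), π1 q hq, zero_add,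
      zero_add]
  have ker : ∀ v, π v = 0 → v ∈ W0 := fun v e => by
    obtain ⟨w, hw, q, hq, rfl⟩ := dec v
    rw [map_add, π0 w hw, π1 q hq, zero_add] at e
    rwa [e, add_zero]
  have o1 : ∀ v, (∀ c ∈ W0, kap v c = 0) → v ∈ P := fun v h => by
    obtain ⟨w, hw, q, hq, rfl⟩ := dec v
    have : w = 0 := kn w fun b => by
      obtain ⟨w', hw', q', hq', rfl⟩ := dec b
      have := h w' hw'
      rw [map_add, LinearMap.add_apply, ks q, ho w' hw' q hq, add_zero] at this
      rw [map_add, this, ho w hw q' hq', add_zero]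
    rwa [this, zero_add]
  have o2 : ∀ v, (∀ c ∈ P, kap v c = 0) → v ∈ W0 := fun v h => by
    obtain ⟨w, hw, q, hq, rfl⟩ := dec v
    have : q = 0 := kn q fun b => by
      obtain ⟨w', hw', q', hq', rfl⟩ := dec b
      have := h q' hq'
      rw [map_add, LinearMap.add_apply, ho w hw q' hq', zero_add] at this
      rw [map_add, this, ks, ho w' hw' q hq, add_zero]
    rwa [this, add_zero]
  have b00 : ∀ a ∈ W0, ∀ b ∈ W0, br a b ∈ W0 := fun a ha b hb =>
    ker _ (bil p V ρ (br.compr₂ π) P (fun g a b => by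
      simp only [LinearMap.compr₂_apply, ← hbr, πρ]) (fun a b => πP _) hN W0 L hL hd a ha b hb)
  have b01 : ∀ a ∈ W0, ∀ b ∈ P, br a b ∈ P := fun a ha b hb => o1 _ fun c hc' => by
    rw [sym, ka, ks, ho _ (b00 a ha c hc') b hb]
  have b11 : ∀ a ∈ P, ∀ b ∈ P, br a b ∈ W0 := fun a ha b hb => o2 _ fun c hc' =>
    tri V ρ (br.compr₂ kap) (fun g a b c => by
      simp only [LinearMap.compr₂_apply, ← hbr, hF.2.2])
      (fun a b => by rw [LinearMap.compr₂_apply, alt, map_zero]; rfl)
      (fun a b => by rw [LinearMap.compr₂_apply, sym, ka, alt, map_zero]) hfx P hG a ha b hb c hc'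
  have two : ∀ v : V, v + v = 0 := fun v => funext fun i => CharTwo.add_self_eq_zero (v i)
  obtain ⟨t, ht⟩ := der.1 π fun a b => by
    obtain ⟨w, hw, q, hq, rfl⟩ := dec a
    obtain ⟨w', hw', q', hq', rfl⟩ := dec b
    have h1 : br q w' ∈ P := sym w' q ▸ b01 w' hw' q hq
    simp only [map_add, LinearMap.add_apply, π0 w hw, π0 w' hw', π1 q hq, π1 q' hq',
      π0 _ (b00 w hw w' hw'), π0 _ (b11 q hq q' hq'), π1 _ h1, π1 _ (b01 w hw q' hq'), zero_add,
      add_zero, map_zero, LinearMap.zero_apply]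
    calc _ = br q w' + br w q' + (br q q' + br q q') := by rw [two, add_zero]
      _ = _ := by abel
  have t0 : t = 0 := (Submodule.mem_bot K).1 (hfx.le fun g _ => sub_eq_zero.1 (der.2 _ fun v => by
    have e : ρ g (ρ g⁻¹ v) = v := by rw [← Module.End.mul_apply, ← map_mul, mul_inv_cancel, map_one]; rfl
    rw [map_sub, LinearMap.sub_apply, ← e, ← hbr, ← ht, ← ht, πρ g, sub_self]))
  refine hP ((Submodule.eq_bot_iff P).2 fun q hq => ?_)
  rw [← π1 q hq, ht, t0, map_zero]; rfl

end Cfsg.Agent.H37.E82Bil
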