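import Cfsg.Agent.H2.FCDefs
import Cfsg.Agent.H77.PSL2

/-! Frobenius' conjecture for `PSL(2, q)`. -/

set_option autoImplicit false

namespace Cfsg.Agent.H37.FcL2

open Cfsg.Agent.H77 Cfsg.Agent.H2.FC Subgroup

variable {F : Type*} [Field F] [Fintype F]

theorem card_map (H : Subgroup (SL2 F)) (h : (pm F).ker ≤ H) :
    Nat.card (pm F).ker * Nat.card (H.map (pm F)) = Nat.card H := by
  rw [← relIndex_ker, ← Nat.card_congr (subgroupOfEquivOfLe h).toEquiv]
  exact card_mul_index _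

theorem ker_le (s : SL2 F) : (pm F).ker ≤ centralizer {s} :=
  pm_ker.le.trans (center_le_centralizer _)

theorem tor_count {s : SL2 F} (hs : IsReg s) {α : ℕ}
    (hα : α ∣ Nat.card ((centralizer {s}).map (pm F))) :
    (α - 1) * Nat.card (PSL2 F) ≤
      2 * Nat.card ((centralizer {s}).map (pm F)) * (f (PSL2 F) α - 1) := by
  refine dvd_count _ _ _ hα ?_
  rintro _ ⟨t, ht, rfl⟩ h1
  have t0 : ¬ IsScal (t : M2 F) := fun e => h1 (pm_eq_one_iff.2 e)
  have hr := hs.of_mem_cent t0 ht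
  rw [← sl_cent_eq_of_mem hs.not_isScal t0 ht]
  obtain ⟨n, hn⟩ := isConj_iff.1 (sl_isConj_of_isReg hr (sl_trace_inv t).symm)
  set A := (centralizer {t}).map (pm F)
  have : {g : PSL2 F | g * pm F t * g⁻¹ ∈ A} ⊆ (A : Set (PSL2 F)) ∪ (pm F n * ·) '' A := by
    intro g hg
    obtain ⟨x, rfl⟩ := pm_surj g
    rw [Set.mem_ofPred_eq, ← map_inv, ← map_mul, ← map_mul, ← mem_comap,
      comap_map_eq_self (ker_le t)] at hg
    rcases hr.eq_or_eq_inv hg (sl_trace_of_isConj (isConj_iff.2 ⟨x, rfl⟩)).symm with e | e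
    · exact Or.inl ⟨x, sl_mem_cent_iff_conj.2 e, rfl⟩
    · refine Or.inr ⟨_, ⟨n⁻¹ * x, sl_mem_cent_iff_conj.2 ?_, rfl⟩, by simp⟩
      rw [show n⁻¹ * x * t * (n⁻¹ * x)⁻¹ = n⁻¹ * (x * t * x⁻¹) * n by group, e, ← hn]; group
  refine (Set.ncard_le_ncard this (Set.toFinite _)).trans ((Set.ncard_union_le _ _).trans ?_)
  rw [Set.ncard_image_of_injective _ (mul_right_injective _), two_mul]
  rfl

theorem par_count (p : ℕ) [CharP F p] : Fintype.card F * Fintype.card F ≤ f (PSL2 F) p := by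
  classical
  let N : F × F → M2 F := fun x =>
    if x.2 = 0 then !![0, 0; x.1, 0] else !![x.1, x.2; -x.1 ^ 2 / x.2, -x.1]
  have hN : ∀ x, N x * N x = 0 ∧ (1 + N x).det = 1 ∧ (1 + N x).trace = 2 := fun x => by
    by_cases h : x.2 = 0 <;> simp only [N, h, if_true, if_false]
    · refine ⟨by ext i j; fin_cases i <;> fin_cases j <;> simp, by simp [Matrix.det_fin_two], ?_⟩
      simp [Matrix.trace_fin_two]
    · refine ⟨by ext i j; fin_cases i <;> fin_cases j <;> simp <;> field_simp <;> ring, ?_, ?_⟩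
      · simp [Matrix.det_fin_two]; field_simp; ring
      · simp [Matrix.trace_fin_two]
  let u : F × F → SL2 F := fun x => ⟨1 + N x, (hN x).2.1⟩
  rw [← Fintype.card_prod, ← Nat.card_eq_fintype_card]
  refine le_f_of_inj (fun x => pm F (u x)) (fun x y e => ?_) fun x => ?_
  · have e1 : u x = u y := (pm_eq_iff.1 e).elim id fun e => by
      have h := (congrArg (fun g : SL2 F => (g : M2 F).trace) e).trans (sl_trace_neg _)
      simp only [u, (hN _).2.2] at h
      have h2 : (2 : F) = 0 := mul_self_eq_zero.1 (by linear_combination h)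
      rwa [sl_neg_eq_self h2] at e
    have e2 : N x = N y := add_left_cancel (congrArg Subtype.val e1)
    have e3 := congrFun (congrFun e2 0) 1
    have e4 := congrFun (congrFun e2 0) 0
    have e5 := congrFun (congrFun e2 1) 0
    by_cases hx : x.2 = 0 <;> by_cases hy : y.2 = 0 <;> simp [N, hx, hy] at e3 e4 e5
    · exact Prod.ext e5 (hx.trans hy.symm)
    · exact absurd e3.symm hy
    · exact Prod.ext e4 e3
  · have k : ∀ m : ℕ, (1 + N x) ^ m = 1 + (m : F) • N x := fun m => by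
      induction m with
      | zero => simp
      | succ m ih =>
        rw [pow_succ, ih, add_mul, mul_add, mul_add, smul_mul_assoc (m : F) (N x) (N x), (hN x).1]
        simp [add_smul, add_assoc, add_comm]
    rw [← map_pow, show u x ^ p = 1 from Subtype.ext (by
      rw [Matrix.SpecialLinearGroup.coe_pow, k, CharP.cast_eq_zero, zero_smul, add_zero]; rfl),
      map_one]

theorem ker_cases : (Nat.card (pm F).ker = 1 ∧ Even (Fintype.card F)) ∨ Nat.card (pm F).ker = 2 := by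
  by_cases h2 : (2 : F) = 0
  · have := CharTwo.of_one_ne_zero_of_two_eq_zero (one_ne_zero' F) h2
    exact Or.inl ⟨by rw [(MonoidHom.ker_eq_bot_iff _).2 (pm_injective h2), card_bot],
      Nat.even_iff.2 (FiniteField.even_card_of_char_two (ringChar.eq F 2))⟩
  · refine Or.inr (Nat.card_eq_two_iff.2 ⟨1, ⟨-1, pm_neg_one⟩, fun e => ?_, ?_⟩)
    · exact sl_neg_ne_self h2 1 (congrArg Subtype.val e).symm
    · refine Set.eq_univ_of_forall fun x => ?_
      exact (pm_eq_one_iff'.1 x.2).imp Subtype.ext Subtype.ext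

theorem arith1 {r d a b α β x y n : ℕ} (ea : d * a = r) (eb : d * b = r + 1 + 1) (d0 : 0 < d)
    (la : α + 1 ≤ a) (lb : β + 1 ≤ b) (ca : α * ((r + 1) * (d * b)) ≤ 2 * x)
    (cb : β * ((r + 1) * (d * a)) ≤ 2 * y) (h1 : (r + 1) * (r + 1) + x + y ≤ n)
    (h2 : n ≤ (r + 1) * d * (α + 1) * (β + 1)) : (r + 1) * d * a * b ≤ n := by
  have h3 : (r + 1) * d * ((α + 1) * b + (β + 1) * a) ≤ 2 * n := by
    have : (r + 1) * (d * a + d * b) = 2 * ((r + 1) * (r + 1)) := by rw [ea, eb]; ring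
    nlinarith
  have h4 : (α + 1) * b + (β + 1) * a ≤ 2 * ((α + 1) * (β + 1)) :=
    Nat.le_of_mul_le_mul_left (h3.trans ((Nat.mul_le_mul_left 2 h2).trans_eq (by ring)))
      (show 0 < (r + 1) * d by positivity)
  clear ca cb h1 h2 ea eb
  have h5 : b = β + 1 := by nlinarith
  have h6 : a = α + 1 := by nlinarith
  rw [← h5, ← h6] at h3
  exact Nat.le_of_mul_le_mul_left ((by ring : _ = _).trans_le h3) two_pos

theorem arith2 {r d a b α β x y n : ℕ} (h : 4 ≤ r + 1) (ea : d * a = r) (eb : d * b = r + 1 + 1)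
    (d2 : d ≤ 2) (lb : β + 1 ≤ b) (ca : α * ((r + 1) * (d * b)) ≤ 2 * x)
    (cb : β * ((r + 1) * (d * a)) ≤ 2 * y) (h1 : x + y + 1 ≤ n)
    (h2 : n ≤ d * ((α + 1) * (β + 1))) : α = 0 ∧ β = 0 := by
  rw [eb] at ca
  rw [ea] at cb
  have h0 : α = 0 := by
    by_contra h3
    have : d * (β + 1) ≤ r + 1 + 1 := eb ▸ Nat.mul_le_mul_left d lb
    have h5 : n ≤ (α + 1) * (r + 1 + 1) :=
      h2.trans ((mul_left_comm _ _ _).trans_le (Nat.mul_le_mul_left _ this))
    have h6 : α * (4 * (r + 1 + 1)) ≤ α * ((r + 1) * (r + 1 + 1)) :=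
      Nat.mul_le_mul_left _ (Nat.mul_le_mul_right _ h)
    have h7 : 1 * (r + 1 + 1) ≤ α * (r + 1 + 1) := Nat.mul_le_mul_right _ (by omega)
    nlinarith
  subst h0
  refine ⟨rfl, by_contra fun h4 => ?_⟩
  have h5 : 12 ≤ (r + 1) * r := by nlinarith
  have h6 := Nat.mul_le_mul_left β h5
  have h7 := Nat.mul_le_mul_right ((0 + 1) * (β + 1)) d2
  omega

theorem fr_l2 (h : 4 ≤ Fintype.card F) : Fr (Matrix.ProjectiveSpecialLinearGroup (Fin 2) F) := by
  intro n hn hf
  obtain ⟨s, hs⟩ := exists_isSplit h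
  obtain ⟨s', hs'⟩ := exists_noEig (F := F)
  have ea := card_map _ (ker_le s)
  have eb := card_map _ (ker_le s')
  have eG := card_map (⊤ : Subgroup (SL2 F)) le_top
  rw [sl_card_cent_isSplit hs, Nat.card_eq_fintype_card (α := F)] at ea
  rw [sl_card_cent_noEig hs'] at eb
  rw [map_top_of_surjective _ pm_surj, card_top, card_top, card_SL2',
    Nat.card_eq_fintype_card (α := F)] at eG
  have ca := tor_count (isReg_of_isSplit hs) (Nat.gcd_dvd_right n _)
  have cb := tor_count (isReg_of_noEig hs') (Nat.gcd_dvd_right n _)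
  obtain ⟨p, hp⟩ := CharP.exists F
  obtain ⟨k, pp, hq⟩ := FiniteField.card F p
  have cp := par_count (F := F) p
  have hd := ker_cases (F := F)
  have a0 : 0 < Nat.card ((centralizer {s}).map (pm F)) := Nat.card_pos
  have b0 : 0 < Nat.card ((centralizer {s'}).map (pm F)) := Nat.card_pos
  generalize Nat.card ((centralizer {s}).map (pm F)) = a at *
  generalize Nat.card ((centralizer {s'}).map (pm F)) = b at *
  generalize Nat.card (pm F).ker = d at *
  obtain ⟨r, hr⟩ : ∃ r, Fintype.card F = r + 1 := ⟨Fintype.card F - 1, by omega⟩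
  rw [hr] at h ea eb eG hq cp hd
  rw [Nat.add_sub_cancel] at ea eG
  have d0 : 0 < d := by omega
  have eG' : Nat.card (PSL2 F) = (r + 1) * d * a * b :=
    Nat.eq_of_mul_eq_mul_left d0 (by rw [eG, ← eb]; nth_rw 2 [← ea]; ring)
  have pq : p ∣ r + 1 := hq ▸ dvd_pow_self p k.ne_zero
  have cpa : p.Coprime a := (Nat.coprime_comm.1 (Nat.Coprime.coprime_dvd_left (Dvd.intro_left d ea)
    (by simp : r.Coprime (r + 1)))).coprime_dvd_left pq
  have cpb : p.Coprime b := (Nat.Coprime.coprime_dvd_right (Dvd.intro_left d eb)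
    (by simp : (r + 1).Coprime (r + 1 + 1))).coprime_dvd_left pq
  have cab : a.Coprime b := by
    rcases hd with ⟨rfl, e⟩ | rfl
    · rw [show b = a + 2 by omega, Nat.coprime_self_add_right, Nat.coprime_two_right]
      obtain ⟨m, hm⟩ := e
      exact ⟨m - 1, by omega⟩
    · rw [show b = a + 1 by omega]; simp
  have la := Nat.le_of_dvd a0 (Nat.gcd_dvd_right n a)
  have lb := Nat.le_of_dvd b0 (Nat.gcd_dvd_right n b)
  have pa := Nat.gcd_pos_of_pos_right n a0
  have pb := Nat.gcd_pos_of_pos_right n b0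
  have c1 := cab.coprime_dvd_left (Nat.gcd_dvd_right n a) |>.coprime_dvd_right (Nat.gcd_dvd_right n b)
  have hn1 : n ∣ (r + 1) * d * n.gcd a * n.gcd b := by
    rw [eG'] at hn
    have h1 := dvd_mul_gcd_of_dvd_mul hn
    rw [mul_right_comm] at h1
    have h2 := dvd_mul_gcd_of_dvd_mul h1
    rwa [mul_right_comm] at h2
  have ev : d = 2 → n = 2 → 2 ≤ n.gcd a ∨ 2 ≤ n.gcd b := by
    rintro rfl rfl
    rcases Nat.even_or_odd' a with ⟨m, e | e⟩
    · exact Or.inl (Nat.gcd_eq_left ⟨m, e⟩).ge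
    · exact Or.inr (Nat.gcd_eq_left ⟨m + 1, by omega⟩).ge
  have fa := f_pos (G := PSL2 F) (n.gcd a)
  have fb := f_pos (G := PSL2 F) (n.gcd b)
  have f2' := f2 (G := PSL2 F) c1 (Nat.gcd_dvd_left n a) (Nat.gcd_dvd_left n b)
  have f3' := fun hp => f3 (G := PSL2 F) (cpa.coprime_dvd_right (Nat.gcd_dvd_right n a))
    (cpb.coprime_dvd_right (Nat.gcd_dvd_right n b)) c1 hp (Nat.gcd_dvd_left n a)
    (Nat.gcd_dvd_left n b)
  rw [hf] at f2' f3'
  rw [eG'] at ca cb hn ⊢
  obtain ⟨α, hα⟩ : ∃ α, n.gcd a = α + 1 := ⟨_, (Nat.sub_add_cancel pa).symm⟩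
  obtain ⟨β, hβ⟩ : ∃ β, n.gcd b = β + 1 := ⟨_, (Nat.sub_add_cancel pb).symm⟩
  rw [hα] at la hn1 ev fa f2' f3' ca
  rw [hβ] at lb hn1 ev fb f2' f3' cb
  rw [Nat.add_sub_cancel] at ca cb
  obtain ⟨x, hx⟩ : ∃ x, f (PSL2 F) (α + 1) = x + 1 := ⟨_, (Nat.sub_add_cancel fa).symm⟩
  obtain ⟨y, hy⟩ : ∃ y, f (PSL2 F) (β + 1) = y + 1 := ⟨_, (Nat.sub_add_cancel fb).symm⟩
  rw [hx] at f2' f3' ca
  rw [hy] at f2' f3' cb
  rw [Nat.add_sub_cancel] at ca cb
  have ca' : α * ((r + 1) * (d * b)) ≤ 2 * x := Nat.le_of_mul_le_mul_left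
    ((by ring : _ = _).trans_le (ca.trans_eq (by ring))) a0
  have cb' : β * ((r + 1) * (d * a)) ≤ 2 * y := Nat.le_of_mul_le_mul_left
    ((by ring : _ = _).trans_le (cb.trans_eq (by ring))) b0
  by_cases hpn : p ∣ n
  · exact Or.inr (le_antisymm (Nat.le_of_dvd (by positivity) hn)
      (arith1 ea eb d0 la lb ca' cb' (by have := f3' hpn; omega) (Nat.le_of_dvd (by positivity) hn1)))
  · have hc : n.Coprime (r + 1) := hq ▸ (((Nat.Prime.coprime_iff_not_dvd pp).2 hpn).symm.pow_right _)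
    rw [mul_assoc, mul_assoc] at hn1
    have h1 := hc.dvd_of_dvd_mul_left hn1
    obtain ⟨rfl, rfl⟩ := arith2 h ea eb (by omega) lb ca' cb' (by omega)
      (Nat.le_of_dvd (by positivity) h1)
    rcases hd with ⟨rfl, -⟩ | rfl
    · exact Or.inl (by simpa using h1)
    · exact Or.inl (((Nat.dvd_prime Nat.prime_two).1 (by simpa using h1)).resolve_right
        fun e => by have := ev rfl e; omega)

end Cfsg.Agent.H37.FcL2
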