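import Mathlib
import Cfsg.Agent.H42.FvDefs
import Cfsg.Agent.H80.KLang

/-! Counting fixed points of a twisted Frobenius map in a unipotent group: one orbit of roots. -/

set_option autoImplicit false

namespace Cfsg.Agent.H37.FvCardA

open Equiv Cfsg.Lie H37 H40 H34 H29 Module H50.E83 H42.Fv
open scoped Matrix

section abs

variable {G : Type*} [Group G]

/-- The product of the first `m` iterates. -/
def Y (s : G →* G) (x : G) (m : ℕ) : G := ((List.range m).map fun j => s^[j] x).prod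

theorem Y_succ (s : G →* G) (x : G) (m : ℕ) : Y s x (m + 1) = Y s x m * s^[m] x := by
  simp [Y, List.range_succ]

theorem Y_succ' (s : G →* G) (x : G) (m : ℕ) : Y s x (m + 1) = x * s (Y s x m) := by
  induction m with
  | zero => simp [Y]
  | succ m ih =>
    rw [Y_succ, Y_succ s x m, map_mul, ← mul_assoc, ← ih, Y_succ s x m, Function.iterate_succ_apply']

theorem Y_mem (s : G →* G) {M : Subgroup G} {x : G} (hx : ∀ j, s^[j] x ∈ M) (m : ℕ) : Y s x m ∈ M := by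
  induction m with
  | zero => simp [Y]
  | succ m ih => rw [Y_succ]; exact M.mul_mem ih (hx m)

theorem count {F : Type*} [AddCommGroup F] (s : G →* G) (M N : Subgroup G) (hNM : N ≤ M)
    (hc : ∀ a ∈ M, ∀ b ∈ M, a * b * a⁻¹ * b⁻¹ ∈ N) (lang : ∀ a ∈ N, ∃ b ∈ N, b⁻¹ * s b = a)
    {T : Type*} (x : T → G) {k : ℕ} (hk : 0 < k) (hx : ∀ t j, s^[j] (x t) ∈ M)
    (hxk : ∀ t, s^[k] (x t) = x t) (κ : G → F) (hκ : ∀ a ∈ M, ∀ b ∈ M, κ (a * b) = κ a + κ b)
    (hκN : ∀ a ∈ N, κ a = 0) (hκj : ∀ t j, 0 < j → j < k → κ (s^[j] (x t)) = 0)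
    (hinj : Function.Injective fun t => κ (x t)) [Finite (H75.EX.fixE s)] :
    Nat.card T * Nat.card ↥(N ⊓ H75.EX.fixE s) ≤ Nat.card ↥(M ⊓ H75.EX.fixE s) := by
  have hY : ∀ t m, m < k → κ (Y s (x t) (m + 1)) = κ (x t) := by
    intro t m
    induction m with
    | zero => intro _; simp [Y]
    | succ m ih =>
      intro hm
      rw [Y_succ, hκ _ (Y_mem s (hx t) _) _ (hx t _), ih (by omega), hκj t _ m.succ_pos hm, add_zero]
  have hz : ∀ t, ∃ z ∈ M, s z = z ∧ κ z = κ (x t) := by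
    intro t
    have h1 : s (Y s (x t) k) = (x t)⁻¹ * Y s (x t) k * x t := by
      have := (Y_succ s (x t) k).symm.trans (Y_succ' s (x t) k)
      rw [hxk] at this
      rw [mul_assoc, this]; group
    have hm := Y_mem s (hx t) k
    obtain ⟨b, hb, e⟩ := lang _ (hc _ (M.inv_mem hm) _ (M.inv_mem (hx t 0)))
    refine ⟨Y s (x t) k * b⁻¹, M.mul_mem hm (M.inv_mem (hNM hb)), ?_, ?_⟩
    · have e2 : s b = b * ((Y s (x t) k)⁻¹ * (x t)⁻¹ * Y s (x t) k * x t) := by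
        have : (Y s (x t) k)⁻¹ * (x t)⁻¹ * Y s (x t) k * x t = b⁻¹ * s b := by
          rw [e]; simp
        rw [this]; group
      rw [map_mul, map_inv, h1, e2]; group
    · rw [hκ _ hm _ (M.inv_mem (hNM hb)), hκN _ (N.inv_mem hb), add_zero]
      obtain ⟨m, rfl⟩ : ∃ m, k = m + 1 := ⟨k - 1, by omega⟩
      exact hY t m m.lt_succ_self
  choose z hzM hzs hzκ using hz
  have : Finite ↥(M ⊓ H75.EX.fixE s) :=
    Finite.of_injective _ (Subgroup.inclusion_injective (inf_le_right : M ⊓ H75.EX.fixE s ≤ _))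
  rw [← Nat.card_prod]
  refine Nat.card_le_card_of_injective (fun p : T × ↥(N ⊓ H75.EX.fixE s) =>
    (⟨z p.1 * p.2, M.mul_mem (hzM _) (hNM p.2.2.1),
      (H75.EX.fixE s).mul_mem (H75.EX.mem_fixE.2 (hzs _)) p.2.2.2⟩ : ↥(M ⊓ H75.EX.fixE s))) ?_
  rintro ⟨t, u⟩ ⟨t', u'⟩ h
  have h1 : z t * u = z t' * u' := congrArg Subtype.val h
  have h2 := congrArg κ h1
  rw [hκ _ (hzM _) _ (hNM u.2.1), hκ _ (hzM _) _ (hNM u'.2.1), hκN _ u.2.1, hκN _ u'.2.1, hzκ, hzκ,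
    add_zero, add_zero] at h2
  obtain rfl : t = t' := hinj h2
  exact Prod.ext rfl (Subtype.ext (mul_left_cancel h1))

theorem comm_gen {Φ : Type*} {X : Φ → Subgroup G} {A A' : Set Φ} (hA : A' ⊆ A)
    (h : ∀ r ∈ A, ∀ s ∈ A, ∀ x ∈ X r, ∀ y ∈ X s, x * y * x⁻¹ * y⁻¹ ∈ gen X A') :
    ∀ a ∈ gen X A, ∀ b ∈ gen X A, a * b * a⁻¹ * b⁻¹ ∈ gen X A' := by
  have hN : gen X A ≤ Subgroup.normalizer (gen X A' : Set G) := by
    refine gen_le fun r hr => le_normalizer_of_conj_mem fun x hx u hu => conj_mem_gen ?_ hu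
    intro s hs y hy
    have := Subgroup.mul_mem _ (h r hr s (hA hs) x hx y hy) (mem_gen hs hy)
    convert this using 1; group
  intro a ha b hb
  refine comm_mem_of_gen hN (fun s hs y hy => ?_) hb
  have := Subgroup.inv_mem _ (comm_mem_of_gen hN (fun r hr x hx => h s hs r hr y hy x hx) ha)
  convert this using 1; group

end abs

theorem card_T {c : K} (hc : c ≠ 0) {k : ℕ} (hk : 0 < k) :
    Nat.card {t : K // c * t ^ 3 ^ k = t} = 3 ^ k := by
  have h1 : 1 < 3 ^ k := Nat.one_lt_pow hk.ne' (by norm_num)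
  obtain ⟨d, hd⟩ := IsAlgClosed.exists_pow_nat_eq c⁻¹ (n := 3 ^ k - 1) (by omega)
  have hd0 : d ≠ 0 := by
    rintro rfl
    rw [zero_pow (by omega)] at hd
    exact inv_ne_zero hc hd.symm
  have hd1 : c * d ^ 3 ^ k = d := by
    rw [show 3 ^ k = 3 ^ k - 1 + 1 by omega, pow_succ, hd, ← mul_assoc, mul_inv_cancel₀ hc, one_mul]
  refine Eq.trans ?_ (H73.card_pow_fixed (k := K) (r := 3) hk)
  refine Nat.card_congr (Equiv.symm ((Equiv.mulLeft₀ d hd0).subtypeEquiv fun u => ?_))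
  show u ^ 3 ^ k = u ↔ c * (d * u) ^ 3 ^ k = d * u
  rw [mul_pow, ← mul_assoc, hd1]
  exact (mul_right_inj' hd0).symm

theorem fin_fix (n : GK) : Finite (H75.EX.fixE (sg n)) := by
  have h : H75.EX.Fr Ph := ⟨1, by
    have : (chevE8.group K).subtype.comp (MulAut.conj (1 : GK)).toMonoidHom = (chevE8.group K).subtype := by
      ext1 g; simp
    rw [this]
    exact H73.isFrob_Phi (C := C8) (H73.reg_Phi 1) (m := 1) one_pos fun _ => rfl⟩
  exact (H80.KL.langStmt C8 K).finite _ ((H80.KL.langStmt C8 K).conj _ n h)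

theorem sg_iter {n : GK} (hn : n ∈ P8.N) (r : Rt) (j : ℕ) :
    ∃ c : K, c ≠ 0 ∧ ∀ t : K, (sg n)^[j] (C8.xg K r t) = C8.xg K ((P8.ν n ^ j) r) (c * t ^ 3 ^ j) := by
  obtain ⟨a, -, ha⟩ := Cert.conj_xg hn
  induction j with
  | zero => exact ⟨1, one_ne_zero, fun t => by simp⟩
  | succ j ih =>
    obtain ⟨c, hc, h⟩ := ih
    refine ⟨a ((P8.ν n ^ j) r) * c ^ 3, mul_ne_zero (Units.ne_zero _) (pow_ne_zero _ hc), fun t => ?_⟩
    rw [Function.iterate_succ_apply', h, sg_apply, Ph, H73.Phi_xg, ha, pow_succ' (P8.ν n), Perm.mul_apply,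
      pow_one, mul_pow, ← pow_mul, ← pow_succ, mul_assoc]

theorem kappa_step (ent : EntStmt) (stab : StabStmt) {A A' : Set Rt} (hA : A ⊆ Pos) (hA' : A' ⊆ A)
    (hcl : ∀ r ∈ A, ∀ s ∈ A, ∀ t, Sum2 r s t → t ∈ A') {r₀ : Rt} (hr₀ : r₀ ∉ A') {h₀ : V}
    (hh : Supp ∅ h₀) {r : Rt} (hr : r ∈ A) (c : K) {g : GK} (hg : g ∈ P8.U A) :
    act (C8.xg K r c * g) h₀ (Sum.inr r₀) =
      (if r₀ = r then -(al r h₀ * c) else 0) + act g h₀ (Sum.inr r₀) := by
  obtain ⟨cf, hcf, he⟩ := ent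
  obtain ⟨h1, h2⟩ := stab K A hA (fun r hr s hs t h => hA' (hcl r hr s hs t h)) h₀
    (fun r h => absurd (hh r h) (Set.notMem_empty r)) g hg
  rw [← act_eq_ac] at h1 h2
  have h3 : act g h₀ (Sum.inr (C8.R.neg r)) = 0 := by
    by_contra h
    exact (C8.R.pos_neg_iff r).1 (hA (h1 _ h)) (hA hr)
  have h4 : ∑ s', (cf r s' r₀ : K) * c * act g h₀ (Sum.inr s') = 0 := by
    refine Finset.sum_eq_zero fun s' _ => ?_
    by_cases e : cf r s' r₀ = 0
    · rw [e, Int.cast_zero, zero_mul, zero_mul]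
    · by_cases e' : act g h₀ (Sum.inr s') = 0
      · rw [e', mul_zero]
      · exact absurd (hcl r hr s' (h1 _ e') r₀ (hcf _ _ _ e)) hr₀
  have h5 : al r (act g h₀) = al r h₀ := by rw [← al_cp, h2, al_cp]
  rw [act_mul, act_apply, xg_eq, (he K r c _).2 r₀, h3, h4, h5, mul_zero, sub_zero, add_zero, add_comm]

theorem cardA (comm : CommStmt) (lu : LangUStmt) (ent : EntStmt) (reg : RegStmt) (stab : StabStmt) :
    CardAStmt := by
  intro n hn A hA A' hA' r₀ k hcl hπ hk hk1 hk2 hkA hr₀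
  obtain ⟨h₀, hh, hal⟩ := reg
  have hr₀A : r₀ ∈ A := by simpa using hkA 0
  have step := fun r (hr : r ∈ A) c g (hg : g ∈ P8.U A) => kappa_step ent stab hA hA' hcl hr₀ hh hr c hg
  have k1 : act 1 h₀ (Sum.inr r₀) = 0 := by
    rw [map_one]
    by_contra h
    exact hh r₀ h
  have kx : ∀ r ∈ A, ∀ c, act (C8.xg K r c) h₀ (Sum.inr r₀) = if r₀ = r then -(al r h₀ * c) else 0 := by
    intro r hr c
    have := step r hr c 1 (Subgroup.one_mem _)
    rwa [mul_one, k1, add_zero] at this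
  have hκ : ∀ a ∈ P8.U A, ∀ b ∈ P8.U A,
      act (a * b) h₀ (Sum.inr r₀) = act a h₀ (Sum.inr r₀) + act b h₀ (Sum.inr r₀) := by
    intro a ha
    rw [U_eq_gen] at ha
    refine (gen_induction (fun a => a ∈ P8.U A ∧ ∀ b ∈ P8.U A,
      act (a * b) h₀ (Sum.inr r₀) = act a h₀ (Sum.inr r₀) + act b h₀ (Sum.inr r₀)) ha ?_ ?_ ?_).2
    · intro r hr x hx
      refine ⟨X_le_U hr hx, fun b hb => ?_⟩
      obtain ⟨c, rfl⟩ := Cert.mem_X.1 hx
      rw [step r hr c b hb, kx r hr c]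
    · exact ⟨Subgroup.one_mem _, fun b _ => by rw [one_mul, k1, zero_add]⟩
    · intro x y hx hy
      refine ⟨Subgroup.mul_mem _ hx.1 hy.1, fun b hb => ?_⟩
      rw [mul_assoc, hx.2 _ (Subgroup.mul_mem _ hy.1 hb), hy.2 _ hb, hx.2 _ hy.1, add_assoc]
  have hle : P8.U A' ≤ P8.U A := by
    rw [U_eq_gen, U_eq_gen]; exact gen_mono hA'
  have hκN : ∀ a ∈ P8.U A', act a h₀ (Sum.inr r₀) = 0 := by
    intro a ha
    rw [U_eq_gen] at ha
    refine (gen_induction (fun a => a ∈ P8.U A ∧ act a h₀ (Sum.inr r₀) = 0) ha ?_ ?_ ?_).2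
    · intro r hr x hx
      refine ⟨X_le_U (hA' hr) hx, ?_⟩
      obtain ⟨c, rfl⟩ := Cert.mem_X.1 hx
      rw [kx r (hA' hr) c, if_neg (fun e : r₀ = r => hr₀ (e ▸ hr))]
    · exact ⟨Subgroup.one_mem _, k1⟩
    · intro x y hx hy
      exact ⟨Subgroup.mul_mem _ hx.1 hy.1, by rw [hκ _ hx.1 _ hy.1, hx.2, hy.2, add_zero]⟩
  have hc : ∀ a ∈ P8.U A, ∀ b ∈ P8.U A, a * b * a⁻¹ * b⁻¹ ∈ P8.U A' := by
    simp only [U_eq_gen]
    refine comm_gen hA' fun r hr s hs x hx y hy => ?_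
    have := comm r (hA hr) s (hA hs) x hx y hy
    rw [U_eq_gen] at this
    exact gen_sub this fun t ht => hcl r hr s hs t ht
  obtain ⟨c, hc0, hck⟩ := sg_iter hn r₀ k
  rw [← card_T hc0 hk]
  have := fin_fix n
  refine count (sg n) (P8.U A) (P8.U A') hle hc
    (lu A' (hA'.trans hA) (fun r hr s hs t h => hcl r (hA' hr) s (hA' hs) t h) n hn hπ)
    (fun t : {t : K // c * t ^ 3 ^ k = t} => C8.xg K r₀ t.1) hk (fun t j => ?_) (fun t => ?_)
    (fun g => act g h₀ (Sum.inr r₀)) hκ hκN (fun t j hj hjk => ?_) (fun t t' h => ?_)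
  · obtain ⟨d, -, hd⟩ := sg_iter hn r₀ j
    rw [hd]
    exact X_le_U (hkA j) (Cert.xg_mem_X _ _)
  · rw [hck, hk1, t.2]
  · obtain ⟨d, -, hd⟩ := sg_iter hn r₀ j
    show act ((sg n)^[j] _) h₀ (Sum.inr r₀) = 0
    rw [hd, kx _ (hkA j), if_neg (hk2 j hj hjk).symm]
  · have h' : act (C8.xg K r₀ t.1) h₀ (Sum.inr r₀) = act (C8.xg K r₀ t'.1) h₀ (Sum.inr r₀) := h
    rw [kx _ hr₀A, kx _ hr₀A, if_pos rfl, if_pos rfl, neg_inj, mul_right_inj' (hal r₀)] at h'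
    exact Subtype.ext h'

end Cfsg.Agent.H37.FvCardA
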