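import Cfsg.Agent.H98.GbH
import Cfsg.Agent.H11.Irr

/-! Project GB, piece DELC. -/

set_option autoImplicit false
open Cfsg Finset
open scoped ComplexConjugate MatrixGroups

namespace Cfsg.Agent.H37.GbDelc

open Cfsg.Agent.H98.GB Cfsg.Agent.H11

universe u

section
variable {F : Type u} [Field F] {m : ℕ}

theorem isU_lt {g : GL (Fin m) F} (hg : IsU g) {i j : Fin m} (h : j < i) : g.1 i j = 0 := by
  rw [hg i j h.le, if_neg h.ne']

theorem isU_self {g : GL (Fin m) F} (hg : IsU g) (i : Fin m) : g.1 i i = 1 := by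
  rw [hg i i le_rfl, if_pos rfl]

theorem isU_one : IsU (1 : GL (Fin m) F) := fun i j _ => by simp [Matrix.one_apply]

theorem isU_mul {g g' : GL (Fin m) F} (hg : IsU g) (hg' : IsU g') : IsU (g * g') := fun i j hji => by
  rw [Units.val_mul, Matrix.mul_apply, sum_eq_single i (fun k _ hk => ?_) (by simp), isU_self hg,
    one_mul, hg' i j hji]
  rcases lt_or_gt_of_ne hk with h | h
  · rw [isU_lt hg h, zero_mul]
  · rw [isU_lt hg' (hji.trans_lt h), mul_zero]

theorem isU_pow {g : GL (Fin m) F} (hg : IsU g) (k : ℕ) : IsU (g ^ k) := by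
  induction k with
  | zero => rw [pow_zero]; exact isU_one
  | succ k ih => rw [pow_succ]; exact isU_mul ih hg

theorem sd_mul {g g' : GL (Fin m) F} (hg : IsU g) (hg' : IsU g') : sd (g * g') = sd g + sd g' := by
  simp only [sd, ← sum_add_distrib]
  refine sum_congr rfl fun i _ => sum_congr rfl fun j _ => ?_
  split_ifs with h
  · have hij : i ≠ j := fun e => by rw [e] at h; omega
    rw [Units.val_mul, Matrix.mul_apply, sum_eq_add_of_mem i j (mem_univ _) (mem_univ _) hij
      fun k _ hk => ?_, isU_self hg, isU_self hg', one_mul, mul_one, add_comm]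
    rcases lt_or_gt_of_ne hk.1 with e | e
    · rw [isU_lt hg e, zero_mul]
    · have h1 : (k : ℕ) ≠ j := fun e => hk.2 (Fin.ext e)
      rw [isU_lt hg' (show j < k by rw [Fin.lt_def] at e ⊢; omega), mul_zero]
  · rw [add_zero]

theorem sd_one : sd (1 : GL (Fin m) F) = 0 :=
  sum_eq_zero fun i _ => sum_eq_zero fun j _ => by
    split_ifs with h
    · exact Matrix.one_apply_ne fun e => by rw [e] at h; omega
    · rfl

theorem tri_of_isU {g : GL (Fin m) F} (hg : IsU g) : g.1.BlockTriangular id := fun _ _ h => isU_lt hg h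

theorem det_isU {g : GL (Fin m) F} (hg : IsU g) : Matrix.GeneralLinearGroup.det g = 1 :=
  Units.ext (by
    rw [Matrix.GeneralLinearGroup.val_det_apply, Matrix.det_of_isUpperTriangular (tri_of_isU hg)]
    exact prod_eq_one fun i _ => isU_self hg i)

theorem nil_isU {g : GL (Fin m) F} (hg : IsU g) : (g.1 - 1) ^ m = 0 := by
  have h1 : (g.1 - 1).BlockTriangular id := (tri_of_isU hg).sub Matrix.blockTriangular_one
  have h2 := Matrix.aeval_self_charpoly (g.1 - 1)
  rw [Matrix.charpoly_of_isUpperTriangular _ h1] at h2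
  simpa [isU_self hg] using h2

theorem pow_isU (r : ℕ) [hr : Fact r.Prime] [CharP F r] {g : GL (Fin m) F} (hg : IsU g) :
    g ^ r ^ m = 1 := by
  rcases Nat.eq_zero_or_pos m with rfl | hm
  · exact Subsingleton.elim _ _
  have : Nonempty (Fin m) := ⟨⟨0, hm⟩⟩
  refine Units.ext ?_
  have h1 := add_pow_char_pow_of_commute r m (Commute.one_right (g.1 - 1))
  rw [sub_add_cancel, pow_eq_zero_of_le (Nat.lt_pow_self hr.out.one_lt).le (nil_isU hg), one_pow,
    zero_add] at h1
  rw [Units.val_pow_eq_pow_val, h1, Units.val_one]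

variable [Fintype F]

variable (F m) in
/-- the upper unitriangular matrices -/
def UU : Subgroup (GL (Fin m) F) where
  carrier := {g | IsU g}
  one_mem' := isU_one
  mul_mem' := isU_mul
  inv_mem' {g} hg := by
    classical
    obtain ⟨k, hk⟩ := (Submonoid.mem_powers_iff _ _).1
      (mem_powers_iff_mem_zpowers.2 (Subgroup.inv_mem _ (Subgroup.mem_zpowers g)))
    exact hk ▸ isU_pow hg k

/-- the linear character -/
noncomputable def lam (ψ : AddChar F ℂ) : UU F m →* ℂ where
  toFun g := ψ (sd g.1)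
  map_one' := by rw [OneMemClass.coe_one, sd_one, AddChar.map_zero_eq_one]
  map_mul' g g' := by rw [Subgroup.coe_mul, sd_mul g.2 g'.2, AddChar.map_add_eq_mul]

theorem lam_apply (ψ : AddChar F ℂ) {g : GL (Fin m) F} (hg : g ∈ UU F m) :
    lam ψ ⟨g, hg⟩ = ψ (sd g) := rfl

theorem isChar_lam (ψ : AddChar F ℂ) : IsCharacter (UU F m) (lam ψ) :=
  isCharacter_monoidHom (lam ψ).toHomUnits

variable [DecidableEq F]

theorem dlt_eq (ψ : AddChar F ℂ) [Fintype (UU F m)] (f : GL (Fin m) F → ℂ) :
    dlt ψ f = classInner (fun g : UU F m => f g) (lam ψ) := by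
  classical
  rw [dlt, classInner_def, Nat.card_eq_fintype_card,
    Fintype.card_of_subtype (p := fun g => g ∈ UU F m) (univ.filter fun g : GL (Fin m) F => IsU g)
      (fun g => by simp only [mem_filter, mem_univ, true_and]; rfl),
    sum_subtype (p := fun g => g ∈ UU F m) _
      (fun g => by simp only [mem_filter, mem_univ, true_and]; rfl)]
  rfl

theorem dlt_congr (ψ : AddChar F ℂ) {f f' : GL (Fin m) F → ℂ} (h : ∀ g, IsU g → f g = f' g) :
    dlt ψ f = dlt ψ f' := by
  classical
  unfold dlt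
  congr 1
  exact sum_congr rfl fun g hg => by rw [h g (mem_filter.1 hg).2]

theorem dlt_add (ψ : AddChar F ℂ) (f f' : GL (Fin m) F → ℂ) :
    dlt ψ (f + f') = dlt ψ f + dlt ψ f' := by
  simp only [dlt, Pi.add_apply, add_mul, sum_add_distrib, mul_add]

theorem dlt_smul (ψ : AddChar F ℂ) (c : ℂ) (f : GL (Fin m) F → ℂ) : dlt ψ (c • f) = c * dlt ψ f := by
  simp only [dlt, Pi.smul_apply, smul_eq_mul, mul_assoc, ← mul_sum]
  ring

theorem cmp_split {a b n : ℕ} (S : GL (Fin n) F → Prop) (η : Fˣ →* ℂˣ) (h : a + b = n)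
    (f : GL (Fin a) F → ℂ) (f' : GL (Fin b) F → ℂ) :
    H98.GB.cmp η h f f' = cmpS (fun x => ¬ S x) η h f f' + cmpS S η h f f' := by
  funext g
  rw [Pi.add_apply]
  unfold H98.GB.cmp cmpS
  rw [← mul_add, ← sum_add_distrib]
  refine congrArg (HMul.hMul _) (sum_congr rfl fun x _ => ?_)
  rw [← sum_add_distrib]
  refine sum_congr rfl fun u _ => ?_
  rw [← sum_add_distrib]
  refine sum_congr rfl fun c _ => ?_
  rw [← sum_add_distrib]
  refine sum_congr rfl fun v _ => ?_
  by_cases h1 : S x <;> simp [h1]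

theorem dlt_one (ψ : AddChar F ℂ) (hψ : ψ ≠ 1) (m : ℕ) :
    dlt ψ (fun _ : GL (Fin m) F => (1 : ℂ)) = if m ≤ 1 then 1 else 0 := by
  classical
  rw [dlt_eq]
  split_ifs with hm
  · have : (lam ψ : UU F m → ℂ) = fun _ => 1 := funext fun g => by
      have : sd g.1 = 0 := sum_eq_zero fun i _ => sum_eq_zero fun j _ => if_neg (by omega)
      show ψ (sd g.1) = 1
      rw [this, AddChar.map_zero_eq_one]
    rw [this]
    exact classInner_one_one
  · obtain ⟨t, ht⟩ : ∃ t, ψ t ≠ 1 := by
      by_contra h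
      push Not at h
      exact hψ (AddChar.ext _ _ h)
    have h01 : (⟨0, by omega⟩ : Fin m) ≠ ⟨1, by omega⟩ := by simp
    let g : GL (Fin m) F := Matrix.GeneralLinearGroup.mkOfDetNeZero
      (Matrix.transvection ⟨0, by omega⟩ ⟨1, by omega⟩ t)
      (by rw [Matrix.det_transvection_of_ne _ _ h01]; exact one_ne_zero)
    have hg : ∀ i j, g.1 i j = (if i = j then 1 else 0) +
        if (⟨0, by omega⟩ : Fin m) = i ∧ (⟨1, by omega⟩ : Fin m) = j then t else 0 := fun i j => by
      show Matrix.transvection _ _ t i j = _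
      rw [Matrix.transvection, Matrix.add_apply, Matrix.one_apply, Matrix.single_apply]
    have hU : IsU g := fun i j hji => by
      rw [hg, if_neg (c := _ ∧ _), add_zero]
      rintro ⟨rfl, rfl⟩
      simp at hji
    have hs : sd g = t := by
      rw [sd, sum_eq_single ⟨0, by omega⟩ (fun i _ hi => sum_eq_zero fun j _ => ?_) (by simp),
        sum_eq_single ⟨1, by omega⟩ (fun j _ hj => if_neg fun e => hj (Fin.ext e)) (by simp),
        if_pos rfl, hg, if_neg h01, if_pos ⟨rfl, rfl⟩, zero_add]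
      split_ifs with e
      · rw [hg, if_neg (fun e' : i = j => by rw [e'] at e; omega), if_neg fun e' => hi e'.1.symm,
          add_zero]
      · rfl
    have h1 : lam (m := m) ψ ≠ 1 := fun e => ht (by
      have hU' : g ∈ UU F m := hU
      have h2 : lam ψ (⟨g, hU'⟩ : UU F m) = 1 := by rw [e]; rfl
      rwa [lam_apply, hs] at h2)
    rw [classInner_eq_zero_comm, classInner_one_right, sum_hom_units_eq_zero _ h1, mul_zero]

end

theorem delc (ha : DEL1aStmt.{u}) (hb : DEL1bStmt.{u}) : DELCStmt.{u} := by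
  classical
  intro F _ _ _ ψ hψ
  refine ⟨fun η a b n h f f' hf hf' => ?_, fun m K hK θ hθ => ?_, fun m χ hχ => ?_,
    fun m p hp hpF f => dlt_congr ψ fun g hg => ?_, fun m η g hg => ?_, dlt_one ψ hψ,
    fun m f f' c => ⟨dlt_add ψ f f', dlt_smul ψ c f⟩⟩
  · rw [cmp_split fun x => imS a x ⊓ stdS F n b = ⊥, dlt_add, hb F η ψ a b n h f f' hf hf',
      ha F η ψ hψ a b n h f f', zero_add]
  · rw [dlt_eq]
    have : (fun g : UU F m => extendByZero K θ g) =
        fun g => θ (Subgroup.inclusion (show UU F m ≤ K from hK) g) := funext fun g =>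
      Subtype.val_injective.extend_apply θ 0 (Subgroup.inclusion (show UU F m ≤ K from hK) g)
    rw [this]
    exact exists_nat_classInner (isCharacter_comp hθ _) (isChar_lam ψ)
  · rw [dlt_eq]
    exact exists_nat_classInner (isCharacter_restrict hχ _) (isChar_lam ψ)
  · have hr : (ringChar F).Prime := CharP.char_is_prime F _
    have := Fact.mk hr
    refine if_pos fun hd => hpF ?_
    exact (Nat.prime_dvd_prime_iff_eq hp hr).1
      (hp.dvd_of_dvd_pow (hd.trans (orderOf_dvd_of_pow_eq_one (pow_isU (ringChar F) hg))))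
  · rw [MonoidHom.mem_ker, dl, MonoidHom.comp_apply, det_isU hg, map_one]

end Cfsg.Agent.H37.GbDelc
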