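import Cfsg.Agent.H98.GbH
import Cfsg.Agent.H40.GbDec

/-! Project GB, piece SUPP. -/

set_option autoImplicit false
open Cfsg Finset
open scoped ComplexConjugate MatrixGroups

namespace Cfsg.Agent.H37.GbSupp

open Cfsg.Agent.H98.GB Cfsg.Agent.H11 Cfsg.Agent.H40.GbDec

universe u

section
variable {G G₁ : Type u} [Group G] [Fintype G] [Group G₁] [Fintype G₁] {C : Type*} [Fintype C]

theorem keyA (j : G₁ → C → G) (hj : ∀ s s' c', ∃ e : C ≃ C, ∀ c, j (s * s') (e c) = j s c * j s' c')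
    (χ : IrrCharacter G) (θ : IrrCharacter G₁) (h0 : ∑ s, ∑ c, θ.1 s⁻¹ * χ.1 (j s c) = 0) (x : G) :
    ∑ s, ∑ c, θ.1 s⁻¹ * χ.1 (j s c * x) = 0 := by
  set F : G → ℂ := fun x => ∑ s, ∑ c, θ.1 s⁻¹ * χ.1 (j s c * x) with hF
  have hc := isClassFunction_of_irr χ.2
  have h1 : ∀ a y : G, ∑ x, χ.1 (a * x) * conj (χ.1 (y * x)) =
      (Nat.card G : ℂ) * classInner χ.1 χ.1 / χ.1 1 * χ.1 (a * y⁻¹) := fun a y => by
    rw [← sum_irr_mul_irr_mul χ.2 χ.2]
    refine Fintype.sum_equiv (Equiv.mulLeft y) _ _ fun x => ?_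
    rw [conj_apply (irr_isCharacter χ), Equiv.coe_mulLeft, mul_comm,
      classFun_mul_comm hc (y * x), show a * y⁻¹ * (y * x) = a * x by group]
  have h2 : ∀ y : G, ∑ x, F x * conj (χ.1 (y * x)) =
      (Nat.card G : ℂ) * classInner χ.1 χ.1 / χ.1 1 * F y⁻¹ := fun y => by
    simp only [hF, sum_mul, mul_sum]
    rw [sum_comm]
    refine sum_congr rfl fun s _ => ?_
    rw [sum_comm]
    refine sum_congr rfl fun c _ => ?_
    simp only [mul_assoc (θ.1 s⁻¹), ← mul_sum, h1]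
    ring
  have h3 : ∀ s' c', F (j s' c')⁻¹ = ∑ z, ∑ c, θ.1 (s'⁻¹ * z⁻¹) * χ.1 (j z c) := fun s' c' => by
    refine (Fintype.sum_equiv (Equiv.mulRight s') _ _ fun z => ?_).symm
    obtain ⟨e, he⟩ := hj z s' c'
    refine Fintype.sum_equiv e _ _ fun c => ?_
    rw [Equiv.coe_mulRight, he, mul_inv_cancel_right, mul_inv_rev]
  have h4 : ∀ z : G₁, ∑ s', θ.1 s' * θ.1 (s'⁻¹ * z⁻¹) =
      (Nat.card G₁ : ℂ) * classInner θ.1 θ.1 / θ.1 1 * θ.1 z⁻¹ := fun z => by
    rw [← sum_irr_mul_irr_mul θ.2 θ.2]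
    exact Fintype.sum_equiv (Equiv.inv G₁) _ _ fun s => by simp
  have h5 : ∀ c', ∑ s', θ.1 s' * F (j s' c')⁻¹ = 0 := fun c' => by
    calc _ = ∑ z, ∑ c, (∑ s', θ.1 s' * θ.1 (s'⁻¹ * z⁻¹)) * χ.1 (j z c) := by
          simp only [h3, mul_sum, sum_mul]
          rw [sum_comm]
          refine sum_congr rfl fun z _ => ?_
          rw [sum_comm]
          exact sum_congr rfl fun c _ => sum_congr rfl fun s _ => by ring
      _ = (Nat.card G₁ : ℂ) * classInner θ.1 θ.1 / θ.1 1 * ∑ z, ∑ c, θ.1 z⁻¹ * χ.1 (j z c) := by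
          simp only [h4, mul_sum, mul_assoc]
      _ = 0 := by rw [h0, mul_zero]
  have h6 : ∑ x, F x * conj (F x) = 0 := by
    calc _ = ∑ c', ∑ s', θ.1 s' * ∑ x, F x * conj (χ.1 (j s' c' * x)) := by
          rw [sum_comm]
          have : ∀ x, conj (F x) = ∑ s', ∑ c', θ.1 s' * conj (χ.1 (j s' c' * x)) := fun x => by
            simp only [hF, map_sum, map_mul, conj_apply (irr_isCharacter θ), inv_inv]
          simp only [this, mul_sum]
          rw [sum_comm]
          refine sum_congr rfl fun s _ => ?_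
          rw [sum_comm]
          exact sum_congr rfl fun c _ => sum_congr rfl fun x _ => by ring
      _ = 0 := sum_eq_zero fun c' _ => by
          simp only [h2, mul_left_comm (θ.1 _), ← mul_sum, h5, mul_zero]
  have h7 : F = 0 := classInner_self_eq_zero.1 (by rw [classInner_def, h6, mul_zero])
  exact congrFun h7 x

theorem keyB (j : G₁ → C → G) (hj : ∀ s s' c', ∃ e : C ≃ C, ∀ c, j (s * s') (e c) = j s c * j s' c')
    (χ : IrrCharacter G) (θ : IrrCharacter G₁) (h0 : ∑ s, ∑ c, θ.1 s⁻¹ * χ.1 (j s c) = 0)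
    {f : G → ℂ} (hf : InE {χ} f) (x : G) : ∑ s, ∑ c, θ.1 s⁻¹ * f (j s c * x) = 0 := by
  have h1 : ∀ y, f y = χ.1 1 / (Nat.card G : ℂ) * ∑ w, χ.1 (y * w) * f w⁻¹ := fun y => by
    have := congrFun (eq_sum_cv f) y
    rw [Finset.sum_apply, sum_eq_single χ (fun ψ _ hψ => by
      rw [Pi.smul_apply, show cv ψ.1 f y = 0 from hf ψ hψ y, smul_zero]) (by simp)] at this
    rw [this, Pi.smul_apply, smul_eq_mul, cv]
    congr 1
    exact (Fintype.sum_equiv (Equiv.mulLeft y) _ _ fun w => by simp).symm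
  calc _ = χ.1 1 / (Nat.card G : ℂ) * ∑ w, (∑ s, ∑ c, θ.1 s⁻¹ * χ.1 (j s c * (x * w))) * f w⁻¹ := by
        simp only [h1 (j _ _ * x), mul_sum, sum_mul]
        rw [sum_comm (s := univ (α := G))]
        refine sum_congr rfl fun s _ => ?_
        rw [sum_comm (s := univ (α := G))]
        exact sum_congr rfl fun c _ => sum_congr rfl fun w _ => by rw [mul_assoc (j s c)]; ring
    _ = 0 := by simp only [keyA j hj χ θ h0, zero_mul, sum_const_zero, mul_zero]

theorem prod_zero (R : G → G₁ → ℂ) (θ : IrrCharacter G₁) (hR : ∀ v, IsClassFunction G fun u => R u v)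
    (h : ∀ χ : IrrCharacter G, ∑ u, ∑ v, χ.1 u * θ.1 v * conj (R u v) = 0) (u : G) :
    ∑ v, θ.1 v⁻¹ * R u v = 0 := by
  refine congrFun (classFun_eq_zero_of_classInner (f := fun u => ∑ v, θ.1 v⁻¹ * R u v)
    (fun g x => sum_congr rfl fun v _ => by rw [show R (x * g * x⁻¹) v = R g v from hR v g x])
    fun χ hχ => ?_) u
  have := congrArg conj (h ⟨χ, hχ⟩)
  simp only [map_sum, map_mul, Complex.conj_conj, map_zero, conj_apply (irr_isCharacter θ)] at this
  rw [classInner_def, ← mul_zero (Nat.card G : ℂ)⁻¹, ← this]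
  simp only [sum_mul]
  congr 1
  exact sum_congr rfl fun u _ => sum_congr rfl fun v _ => by ring

end

section
variable {F : Type u} [Field F] [Fintype F] [DecidableEq F] {a b n : ℕ}

/-- `c ↦ d + u c v` -/
noncomputable def aff (d : Matrix (Fin a) (Fin b) F) (u : GL (Fin a) F) (v : GL (Fin b) F) :
    Matrix (Fin a) (Fin b) F ≃ Matrix (Fin a) (Fin b) F where
  toFun c := d + u.1 * c * v.1
  invFun c := (u⁻¹).1 * (c - d) * (v⁻¹).1
  left_inv c := by
    simp only [add_sub_cancel_left, Matrix.mul_assoc, Units.mul_inv, Matrix.mul_one]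
    rw [← Matrix.mul_assoc, Units.inv_mul, Matrix.one_mul]
  right_inv c := by
    simp only [Matrix.mul_assoc, Units.inv_mul, Matrix.mul_one]
    rw [← Matrix.mul_assoc, Units.mul_inv, Matrix.one_mul, add_sub_cancel]

omit [Fintype F] in
theorem aff_apply (d : Matrix (Fin a) (Fin b) F) (u : GL (Fin a) F) (v : GL (Fin b) F)
    (c : Matrix (Fin a) (Fin b) F) : aff d u v c = d + u.1 * c * v.1 := rfl

theorem res_conj (h : a + b = n) {χ : GL (Fin n) F → ℂ} (hχ : IsClassFunction _ χ)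
    (s u : GL (Fin a) F) (t v : GL (Fin b) F) :
    res h χ (s * u * s⁻¹) (t * v * t⁻¹) = res h χ u v := by
  unfold res
  congr 1
  refine (Fintype.sum_equiv (aff 0 s t⁻¹) _ _ fun c => ?_).symm
  rw [← hχ _ (tri h s 0 t)]
  congr 1
  rw [mul_inv_eq_iff_eq_mul, tri_mul, tri_mul, aff_apply]
  congr 1
  · group
  · simp [Matrix.mul_assoc]
  · group

theorem sum_res (h : a + b = n) (f : GL (Fin n) F → ℂ) (u : GL (Fin a) F) (v : GL (Fin b) F) :
    ∑ c, f (tri h u c v) = ((Fintype.card F ^ (a * b) : ℕ) : ℂ) * res h f u v := by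
  rw [res, ← mul_assoc, mul_inv_cancel₀ (Nat.cast_ne_zero.2 (pow_ne_zero _ Fintype.card_ne_zero)),
    one_mul]

end

theorem supp (hA : ADJStmt.{u}) : SUPPStmt.{u} := by
  intro F _ _ _ a b n h χ f hf S₁ S₂ hS
  have hc := isClassFunction_of_irr χ.2
  have adj : ∀ (χ₁ : IrrCharacter (GL (Fin a) F)) (χ₂ : IrrCharacter (GL (Fin b) F)),
      χ₁ ∉ S₁ ∨ χ₂ ∉ S₂ → ∑ u, ∑ v, χ₁.1 u * χ₂.1 v * conj (res h χ.1 u v) = 0 := fun χ₁ χ₂ hn => by
    have h1 : classInner (cmp 1 h χ₁.1 χ₂.1) χ.1 = 0 := by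
      by_contra e
      exact hn.elim (fun m => m (hS _ _ e).1) fun m => m (hS _ _ e).2
    rw [(hA F 1 a b n h χ₁.1 χ₂.1 χ.1 fun x g => by rw [hc g x, dl_one]; simp).2, classInner_def,
      Fintype.sum_prod_type] at h1
    exact (mul_eq_zero.1 h1).resolve_left (inv_ne_zero (card_ne_zero _))
  refine ⟨fun v χ₁ h1 g => ?_, fun u χ₂ h2 g => ?_⟩
  · have h3 := prod_zero (fun v u => res h χ.1 u v) χ₁
      (fun u v t => by simpa using res_conj h hc 1 u t v)
      (fun χ₂ => by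
        rw [sum_comm, ← adj χ₁ χ₂ (.inl h1)]
        exact sum_congr rfl fun u _ => sum_congr rfl fun v _ => by ring) 1
    have h4 := keyB (fun s c => tri h s c 1) (fun s s' c' => ⟨aff (s.1 * c') 1 1, fun c => by
      rw [tri_mul, aff_apply]; simp⟩) χ χ₁ (by
        simp only [← mul_sum, sum_res, mul_left_comm (χ₁.1 _), h3, mul_zero]) hf (tri h g 0 v)
    have h5 : ∀ s, ∑ c, f (tri h s c 1 * tri h g 0 v) = ∑ c, f (tri h (s * g) c v) := fun s =>
      Fintype.sum_equiv (aff 0 1 v) _ _ fun c => by rw [tri_mul, aff_apply]; simp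
    simp only [← mul_sum, h5, sum_res, mul_left_comm (χ₁.1 _)] at h4
    rw [← (mul_eq_zero.1 h4).resolve_left
      (Nat.cast_ne_zero.2 (pow_ne_zero _ Fintype.card_ne_zero))]
    exact Fintype.sum_equiv (Equiv.inv _) _ _ fun s => by simp
  · have h3 := prod_zero (fun u v => res h χ.1 u v) χ₂
      (fun v u s => by simpa using res_conj h hc s u 1 v) (fun χ₁ => adj χ₁ χ₂ (.inr h2)) 1
    have h4 := keyB (fun t c => tri h 1 c t) (fun t t' c' => ⟨aff c' 1 t', fun c => by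
      rw [tri_mul, aff_apply]; simp⟩) χ χ₂ (by
        simp only [← mul_sum, sum_res, mul_left_comm (χ₂.1 _), h3, mul_zero]) hf (tri h u 0 g)
    have h5 : ∀ t, ∑ c, f (tri h 1 c t * tri h u 0 g) = ∑ c, f (tri h u c (t * g)) := fun t =>
      Fintype.sum_equiv (aff 0 1 g) _ _ fun c => by rw [tri_mul, aff_apply]; simp
    simp only [← mul_sum, h5, sum_res, mul_left_comm (χ₂.1 _)] at h4
    rw [← (mul_eq_zero.1 h4).resolve_left
      (Nat.cast_ne_zero.2 (pow_ne_zero _ Fintype.card_ne_zero))]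
    exact Fintype.sum_equiv (Equiv.inv _) _ _ fun s => by simp

end Cfsg.Agent.H37.GbSupp
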