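import Cfsg.Agent.H98.GbL
import Cfsg.Agent.H37.GbDelc
import Cfsg.Agent.H44.GbConc
import Cfsg.Agent.H10.GbOne

/-! Project GB, piece TH0b. -/

set_option autoImplicit false
open Cfsg Finset
open scoped ComplexConjugate MatrixGroups

namespace Cfsg.Agent.H37.GbTh0b

open Cfsg.Agent.H98.GB Cfsg.Agent.H37.GbDelc

universe u

section
variable {G : Type u} [Group G] [Fintype G]

theorem sum_ind (K : Subgroup G) [DecidablePred (· ∈ K)] :
    ∑ x : G, (if x ∈ K then 1 else 0) = Nat.card K := by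
  rw [sum_boole, Nat.cast_id, Nat.card_eq_fintype_card, Fintype.card_subtype]

theorem one_of {K : Subgroup G} {a : G → ℂ} {c : G → ℂ} (h1 : (Nat.card K : ℂ)⁻¹ * ∑ x, a x = 1)
    (h : ∀ x, a x ≠ 0 → c x = 1) : (Nat.card K : ℂ)⁻¹ * ∑ x, c x * a x = 1 := by
  rw [← h1]
  congr 1
  refine sum_congr rfl fun x _ => ?_
  by_cases e : a x = 0
  · rw [e, mul_zero]
  · rw [h x e, one_mul]

theorem card_of {K : Subgroup G} {a : G → ℕ} (h : (Nat.card K : ℂ)⁻¹ * ∑ x, (a x : ℂ) = 1) :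
    ∑ x, a x = Nat.card K := by
  rw [inv_mul_eq_one₀ (H14.card_subgroup_ne_zero K)] at h
  exact_mod_cast h.symm

omit [Fintype G] in
theorem pow_ker {l : G →* ℂˣ} {x : G} (hx : x ∈ l.ker) (j : ℕ) : ((l ^ j) x : ℂ) = 1 := by
  rw [MonoidHom.pow_apply, show l x = 1 from hx, one_pow, Units.val_one]

end

section
variable {F : Type u} [Field F] [Fintype F] [DecidableEq F] {n : ℕ}

theorem dlt_av (ψ : AddChar F ℂ) {K : Subgroup (GL (Fin n) F)} (hK : ∀ g, IsU g → g ∈ K)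
    (l : GL (Fin n) F →* ℂˣ) (f : K → ℂ) :
    dlt ψ (av K l f) = (Nat.card K : ℂ)⁻¹ * ∑ x, (l x : ℂ) * dlt ψ (extendByZero K (cj K x f)) := by
  have h1 : ∀ x, dlt ψ (extendByZero K (cj K x f)) = dlt ψ fun g => extendByZero K f (x⁻¹ * g * x) :=
    fun x => dlt_congr ψ fun g hg => H14.extendByZero_of_mem K _ (hK g hg)
  simp only [h1]
  simp only [dlt, av, mul_sum, sum_mul]
  rw [sum_comm]
  exact sum_congr rfl fun x _ => sum_congr rfl fun g _ => by ring

theorem dlt_ext_add (ψ : AddChar F ℂ) {K : Subgroup (GL (Fin n) F)} (hK : ∀ g, IsU g → g ∈ K)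
    (f f' : K → ℂ) : dlt ψ (extendByZero K (f + f')) =
      dlt ψ (extendByZero K f) + dlt ψ (extendByZero K f') := by
  rw [← dlt_add]
  refine dlt_congr ψ fun g hg => ?_
  simp only [Pi.add_apply, H14.extendByZero_of_mem K _ (hK g hg)]

end

theorem th0b (hO : ONEStmt.{u}) (hD : DELCStmt.{u}) : TH0bStmt.{u} := by
  classical
  intro F _ _ _ ψ hψ ξ n
  obtain ⟨-, d2, -, -, d5, -⟩ := hD F ψ hψ
  have hK := d5 n ξ
  set l := dl ξ n
  have cjc : ∀ f : l.ker → ℂ, IsCharacter _ f → ∀ x, IsCharacter _ (cj l.ker x f) := fun f hf x => by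
    rw [H10.GbOne.cj_eq]; exact H14.isCharacter_conjChar _ hf _
  have nat : ∀ f : l.ker → ℂ, IsCharacter _ f → ∃ a : GL (Fin n) F → ℕ,
      ∀ x, dlt ψ (extendByZero l.ker (cj l.ker x f)) = a x := fun f hf => by
    choose a ha using fun x => d2 n l.ker hK _ (cjc f hf x)
    exact ⟨a, ha⟩
  refine ⟨fun χ hl h1 => ?_, fun Θ θ hΘ h1 h2 h3 j => ?_⟩
  · have hs : ∀ θ : IrrCharacter l.ker, H22.Over _ χ.1 θ.1 → (Nat.card l.ker : ℂ)⁻¹ *
        ∑ x, dlt ψ (extendByZero l.ker (cj l.ker x θ.1)) = 1 := fun θ h => by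
      have := dlt_av ψ hK 1 θ.1
      rw [(hO _ l χ hl θ h).1, h1] at this
      simpa using this.symm
    obtain ⟨θ₀, hθ₀, h0⟩ := H11.exists_irr_constituent
      (H11.isCharacter_restrict (H11.irr_isCharacter χ) l.ker)
      fun e => H11.irr_apply_one_ne_zero χ.2 (congrFun e 1)
    obtain ⟨x₀, hx₀⟩ : ∃ x, dlt ψ (extendByZero l.ker (cj l.ker x θ₀)) ≠ 0 := by
      by_contra! h
      have := hs ⟨θ₀, hθ₀⟩ ((H22.over_iff _ _ _).2 h0)
      simp [h] at this
    have hθ : IsIrrCharacter _ (cj l.ker x₀ θ₀) := by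
      rw [H10.GbOne.cj_eq]; exact H14.isIrr_conjChar _ hθ₀ _
    have ho : H22.Over _ χ.1 (cj l.ker x₀ θ₀) := by
      rw [H22.over_iff, H10.GbOne.cj_eq]
      have := H14.inner_conjChar_conjChar l.ker (fun k => χ.1 k) θ₀ x₀⁻¹
      rw [show H14.conjChar l.ker (fun k => χ.1 k) x₀⁻¹ = fun k : l.ker => χ.1 k from
        funext fun k => H11.isClassFunction_of_irr χ.2 k x₀⁻¹] at this
      rwa [this]
    obtain ⟨a, ha⟩ := nat _ (H11.isCharacter_of_irr hθ)
    have h4 := hs ⟨_, hθ⟩ ho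
    have h5 : ∀ k ∈ l.ker, cj l.ker k (cj l.ker x₀ θ₀) = cj l.ker x₀ θ₀ := fun k hk => by
      rw [H10.GbOne.cj_eq k, H14.conjChar_of_mem _ (H11.isClassFunction_of_irr hθ) (inv_mem hk)]
    have h6 : ∀ x, (if x ∈ l.ker then 1 else 0) = a x := fun x =>
      (sum_eq_sum_iff_of_le fun x _ => ?_).1
        ((sum_ind l.ker).trans (card_of (by simpa only [ha] using h4)).symm) x (mem_univ x)
    · refine ⟨⟨_, hθ⟩, ho, ?_, fun j => ?_⟩
      · have := ha 1
        rwa [h5 1 (one_mem _), ← h6, if_pos (one_mem _), Nat.cast_one] at this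
      · rw [dlt_av ψ hK]
        refine one_of h4 fun x hx => pow_ker (by_contra fun e => hx ?_) j
        rw [ha, ← h6, if_neg e, Nat.cast_zero]
    · split_ifs with e
      · refine Nat.one_le_iff_ne_zero.2 fun e' => hx₀ ?_
        rw [← h5 x e, ha, e', Nat.cast_zero]
      · exact Nat.zero_le _
  · obtain ⟨a, ha⟩ := nat Θ hΘ
    have hk0 := H14.card_subgroup_ne_zero l.ker
    have h4 : ∀ j : ℕ, ∑ x, (l x : ℂ) ^ j * a x = Nat.card l.ker := fun j => by
      have := h2 j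
      rw [dlt_av ψ hK, inv_mul_eq_one₀ hk0] at this
      simpa only [ha, MonoidHom.pow_apply, Units.val_pow_eq_pow_val] using this.symm
    have h5 : ∑ x, (if x ∈ l.ker then a x else 0) = ∑ x, a x := by
      have e1 := sum_congr rfl fun j (_ : j ∈ range (Nat.card (GL (Fin n) F))) => h4 j
      rw [sum_comm, sum_const, card_range, nsmul_eq_mul, ← h4 0] at e1
      simp only [← sum_mul, H44.GbConc.geo, pow_zero, one_mul, ite_mul, zero_mul] at e1
      have e2 : ((∑ x, (if x ∈ l.ker then a x else 0) : ℕ) : ℂ) = ((∑ x, a x : ℕ) : ℂ) := by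
        refine mul_left_cancel₀ (H14.card_group_ne_zero (GL (Fin n) F)) ?_
        push_cast
        rw [← e1, mul_sum]
        exact sum_congr rfl fun x _ => by split_ifs <;> simp
      exact_mod_cast e2
    have h6 : ∀ x, x ∉ l.ker → a x = 0 := fun x hx => by
      have := (sum_eq_sum_iff_of_le fun x _ => by split_ifs <;> simp).1 h5 x (mem_univ x)
      rw [if_neg hx] at this
      exact this.symm
    rw [H44.GbConc.key] at h3 ⊢
    refine one_of (by simpa using h3) fun x hx => pow_ker (by_contra fun e => ?_) j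
    obtain ⟨r, hr⟩ := d2 n l.ker hK _ (H11.isCharacter_sub_irr (cjc Θ hΘ x) θ.2 hx)
    have := dlt_ext_add ψ hK (cj l.ker x Θ - θ.1) θ.1
    rw [sub_add_cancel, ha, h6 x e, hr, h1] at this
    exact Nat.succ_ne_zero r (by exact_mod_cast this.symm)

end Cfsg.Agent.H37.GbTh0b
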