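import Cfsg.Agent.H73.LPDefs
import Cfsg.Agent.H24.Deg
import Cfsg.Agent.H28.Transport
import Cfsg.Agent.H52.Fitting
import Cfsg.Agent.S2544
import Cfsg.Agent.S0243
import Cfsg.Agent.S0154
import Cfsg.Agent.S0252
import Cfsg.Agent.S3378

/-! Characters of defect zero and the recognition of `L₂(p²)` by its degrees. -/

set_option autoImplicit false

universe u v

namespace Cfsg.Agent.H37.LPF

open Cfsg Subgroup H73.LP

theorem pChar : PChar.{u} := by
  intro G _ _ p hp χ d hd h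
  by_contra hne
  have hP := H52.pCore_isPGroup (p := p) (G := G)
  have : Nontrivial (pCore p G) := (nontrivial_iff_ne_bot _).2 hne
  have := hP.center_nontrivial
  let A := (center (pCore p G)).map (pCore p G).subtype
  have h1 := H24.deg_dvd_index_of_comm χ.2 A (by
    rintro _ ⟨a, -, rfl⟩ _ ⟨b, hb, rfl⟩
    exact congrArg Subtype.val (mem_center_iff.1 hb a))
  rw [H24.deg_eq hd] at h1
  obtain ⟨k, hk, e⟩ := (hP.to_subgroup (center _)).nontrivial_iff_card.1 this
  have h2 : p ∣ Nat.card A := by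
    rw [card_map_of_injective (subtype_injective _), e]; exact dvd_pow_self p hk.ne'
  rw [← A.card_mul_index, Nat.mul_div_assoc _ h1] at h
  exact h (h2.mul_right _)

theorem card_psl {F : Type v} [Field F] [Fintype F] {q : ℕ} (hF : Fintype.card F = q) :
    Nat.gcd 2 (q - 1) * Nat.card (Matrix.ProjectiveSpecialLinearGroup (Fin 2) F) =
      q * (q ^ 2 - 1) := by
  have h := S0243.result hF 2 le_rfl
  have h2 : 1 < q := hF ▸ Fintype.one_lt_card
  rw [Fin.prod_univ_two, mul_left_comm] at h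
  refine Nat.eq_of_mul_eq_mul_left (by omega : 0 < q - 1) (h.trans ?_)
  rw [Fin.val_zero, Fin.val_one, pow_zero, pow_one, ← mul_assoc, mul_comm, sq, ← Nat.mul_sub_one,
    mul_comm q (q - 1)]

theorem of_deg (hM : PMain.{u}) {F : Type v} [Field F] [Fintype F] (p : ℕ) (hp : p.Prime)
    (h2 : p ≠ 2) (hF : Fintype.card F = p ^ 2) {G : Type u} [Group G] [Finite G]
    (hcard : Nat.card G = Nat.card (Matrix.ProjectiveSpecialLinearGroup (Fin 2) F))
    (hdeg : ∃ χ : Cfsg.IrrCharacter G, (χ : G → ℂ) 1 = (p ^ 2 : ℕ)) :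
    Nonempty (G ≃* Matrix.ProjectiveSpecialLinearGroup (Fin 2) F) := by
  have := Fact.mk hp
  have h1 := card_psl hF
  have ho : Odd (p ^ 2) := (hp.odd_of_ne_two h2).pow
  rw [Nat.gcd_eq_left (Nat.Odd.sub_odd ho odd_one).two_dvd, ← hcard, ← pow_mul] at h1
  obtain ⟨χ, hχ⟩ := hdeg
  have h3 := H24.deg_dvd_card χ.2
  rw [H24.deg_eq hχ] at h3
  obtain ⟨E, _, _, hE, ⟨e⟩⟩ := hM G p h2 h1 (pChar G p χ _ hχ fun h => by
    obtain ⟨m, hm⟩ := h3
    rw [hm, Nat.mul_div_cancel_left _ (pow_pos hp.pos 2)] at h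
    rw [hm, mul_left_comm] at h1
    have h4 := Nat.eq_of_mul_eq_mul_left (pow_pos hp.pos 2) h1
    have h5 : p ∣ p ^ (2 * 2) - 1 := h4 ▸ h.mul_left 2
    have h6 := Nat.dvd_sub (dvd_pow_self p (by norm_num : 2 * 2 ≠ 0)) h5
    rw [Nat.sub_sub_self (pow_pos hp.pos _)] at h6
    exact hp.one_lt.ne' (Nat.dvd_one.1 h6))
  exact ⟨e.trans (H28.pslEquiv (FiniteField.ringEquivOfCardEq (hE.trans hF.symm)) (Fin 2))⟩

theorem s3597_of (hM : PMain.{u}) {F : Type v} [Field F] [Fintype F] (p : ℕ) (hp : p.Prime)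
    (h5 : 5 < p) (hF : Fintype.card F = p ^ 2) {G : Type u} [Group G] [Finite G]
    (hcard : Nat.card G = Nat.card (Matrix.ProjectiveSpecialLinearGroup (Fin 2) F))
    (hdeg : ∃ χ : Cfsg.IrrCharacter G, (χ : G → ℂ) 1 = (p ^ 2 : ℕ))
    (_hno : ∀ χ : Cfsg.IrrCharacter G, ∀ d : ℕ, (χ : G → ℂ) 1 = (d : ℂ) → ¬ 2 * p ∣ d) :
    Nonempty (G ≃* Matrix.ProjectiveSpecialLinearGroup (Fin 2) F) :=
  of_deg hM p hp (by omega) hF hcard hdeg

theorem card_eq_of_deg {G : Type u} {H : Type v} [Group G] [Finite G] [Group H] [Finite H]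
    (h : ∀ d : ℕ, Nat.card {χ : IrrCharacter G // (χ : G → ℂ) 1 = (d : ℂ)} =
      Nat.card {χ : IrrCharacter H // (χ : H → ℂ) 1 = (d : ℂ)}) : Nat.card G = Nat.card H := by
  have := Fintype.ofFinite (IrrCharacter G)
  have := Fintype.ofFinite (IrrCharacter H)
  have k : ∀ d : ℕ, {χ : IrrCharacter G // charDegree χ.1 = d} ≃
      {χ : IrrCharacter H // charDegree χ.1 = d} := fun d =>
    (Equiv.subtypeEquivRight fun χ => H24.deg_eq_iff (H11.isCharacter_of_irr χ.2)).trans
      ((Finite.card_eq.1 (h d)).some.trans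
        (Equiv.subtypeEquivRight fun χ => (H24.deg_eq_iff (H11.isCharacter_of_irr χ.2)).symm))
  rw [← H24.sum_deg_sq, ← H24.sum_deg_sq]
  exact Fintype.sum_equiv (Equiv.ofFiberEquiv k) _ _ fun χ => by
    rw [Equiv.ofFiberEquiv_map k χ]

theorem s3598_of (hM : PMain.{u}) {F : Type v} [Field F] [Fintype F] (p : ℕ) (hp : p.Prime)
    (hF : Fintype.card F = p ^ 2) {G : Type u} [Group G] [Finite G]
    (h : ∀ d : ℕ, Nat.card {χ : Cfsg.IrrCharacter G // (χ : G → ℂ) 1 = (d : ℂ)} =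
      Nat.card {χ : Cfsg.IrrCharacter (Matrix.ProjectiveSpecialLinearGroup (Fin 2) F) // (χ : Matrix.ProjectiveSpecialLinearGroup (Fin 2) F → ℂ) 1 = (d : ℂ)}) :
    Nonempty (G ≃* Matrix.ProjectiveSpecialLinearGroup (Fin 2) F) := by
  have hc := card_eq_of_deg h
  have h1 := card_psl hF
  by_cases h2 : p = 2
  · subst h2
    obtain ⟨e⟩ := S0252.result (F := F) hF
    have h3 : Nat.card G = 60 := by rw [← hc] at h1; simpa using h1
    have h4 := h 1
    rw [Nat.cast_one, S0154.result, S0154.result] at h4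
    have h5 : commutator (Matrix.ProjectiveSpecialLinearGroup (Fin 2) F) = ⊤ := by
      have := e.isSimpleGroup
      refine (IsSimpleGroup.eq_bot_or_eq_top_of_normal _ inferInstance).resolve_left fun k => ?_
      have c : ∀ a b : Matrix.ProjectiveSpecialLinearGroup (Fin 2) F, a * b = b * a := fun a b =>
        commutatorElement_eq_one_iff_mul_comm.1 (mem_bot.1 (k ▸ commutator_mem_commutator
          (mem_top a) (mem_top b)))
      have c' : ∀ a b : alternatingGroup (Fin 5), a * b = b * a := fun a b => by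
        rw [← e.apply_symm_apply a, ← e.apply_symm_apply b, ← map_mul, c, map_mul]
      exact absurd (congrArg Subtype.val (c' ⟨Equiv.swap 0 1 * Equiv.swap 1 2,
        Equiv.Perm.mem_alternatingGroup.2 (by decide)⟩
        ⟨Equiv.swap 0 1 * Equiv.swap 1 3, Equiv.Perm.mem_alternatingGroup.2 (by decide)⟩)) (by decide)
    rw [h5, index_top, index_eq_one] at h4
    obtain ⟨e'⟩ := S3378.equiv_A5 h3 fun hs => by
      have : Nontrivial G := Finite.one_lt_card_iff_nontrivial.1 (by omega)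
      exact (Group.IsSolvable.commutator_lt_top_of_nontrivial G).ne h4
    exact ⟨e'.trans e.symm⟩
  · have := Fact.mk hp
    have : CharP F p := by
      obtain ⟨r, hr⟩ := CharP.exists F
      obtain ⟨n, hr', e⟩ := FiniteField.card F r
      rwa [(Nat.prime_dvd_prime_iff_eq hr' hp).1 (hr'.dvd_of_dvd_pow (n := 2)
        (hF ▸ e ▸ dvd_pow_self r n.ne_zero))] at hr
    obtain ⟨χ, hχ, k⟩ := S2544.result (F := F) p 2 le_rfl
    have P : Sylow p (Matrix.ProjectiveSpecialLinearGroup (Fin 2) F) := default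
    have h3 : Nat.card P = p ^ 2 := by
      have ho : Odd (p ^ 2) := (hp.odd_of_ne_two h2).pow
      rw [Nat.gcd_eq_left (Nat.Odd.sub_odd ho odd_one).two_dvd] at h1
      have h4 : ¬ p ∣ (p ^ 2) ^ 2 - 1 := fun h5 => by
        have h6 := Nat.dvd_sub ((dvd_pow_self p two_ne_zero).trans (dvd_pow_self _ two_ne_zero)) h5
        rw [Nat.sub_sub_self (pow_pos (pow_pos hp.pos _) _)] at h6
        exact hp.one_lt.ne' (Nat.dvd_one.1 h6)
      have h5 := congrArg (fun n => n.factorization p) h1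
      rw [Nat.factorization_mul two_ne_zero Nat.card_pos.ne', Nat.factorization_mul
        (pow_pos hp.pos _).ne' (fun e => h4 (by rw [e]; exact dvd_zero p)), Finsupp.add_apply, Finsupp.add_apply,
        Nat.factorization_eq_zero_of_not_dvd h4, hp.factorization_pow,
        Nat.factorization_eq_zero_of_not_dvd fun e =>
          h2 ((Nat.prime_dvd_prime_iff_eq hp Nat.prime_two).1 e)] at h5
      rw [P.card_eq_multiplicity]
      congr 1
      simpa using h5
    have h4 : 0 < Nat.card {χ : IrrCharacter G // (χ : G → ℂ) 1 = ((p ^ 2 : ℕ) : ℂ)} := by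
      rw [h]
      have : Nonempty {χ : IrrCharacter (Matrix.ProjectiveSpecialLinearGroup (Fin 2) F) //
          (χ : Matrix.ProjectiveSpecialLinearGroup (Fin 2) F → ℂ) 1 = ((p ^ 2 : ℕ) : ℂ)} :=
        ⟨⟨⟨χ, hχ⟩, by rw [← h3]; exact (k P).1⟩⟩
      exact Nat.card_pos
    obtain ⟨⟨ψ, hψ⟩⟩ := (Nat.card_pos_iff.1 h4).1
    exact of_deg hM p hp h2 hF hc ⟨ψ, hψ⟩

end Cfsg.Agent.H37.LPF
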