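import Cfsg.Agent.H63.PSKit

/-! S3019, piece L1: centre of a Sylow subgroup, weak closure, fusion. -/

set_option autoImplicit false
open Cfsg Subgroup Cfsg.Agent.H63.PS
open scoped Pointwise

namespace Cfsg.Agent.H37.PS

universe u

variable {p : ℕ} [hp : Fact p.Prime] {G : Type u} [Group G]

theorem cen_smul {S : Sylow p G} {d : G} (h : Cen S d) (g : G) :
    Cen ((g • S : Sylow p G) : Subgroup G) (g * d * g⁻¹) := by
  rw [Sylow.coe_subgroup_smul]
  refine ⟨H8.conj_mem_conj_smul.2 h.1, fun y hy => ?_⟩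
  have := h.2 _ (H8.mem_conj_smul.1 hy)
  calc g * d * g⁻¹ * y = g * (d * (g⁻¹ * y * g)) * g⁻¹ := by group
    _ = _ := by rw [this]; group

theorem cen_le {S : Subgroup G} {d : G} (h : Cen S d) : S ≤ CC d := fun y hy =>
  mem_centralizer_singleton_iff.2 (h.2 y hy).symm

variable [Finite G]

theorem pair (h : Hyp p G) (S₁ S₂ : Sylow p G) (d₁ d₂ : G) (h1 : Cen S₁ d₁) (h2 : Cen S₂ d₂) :
    d₁⁻¹ * d₂⁻¹ * d₁ * d₂ ∈ OO p ((S₁ : Subgroup G) ⊔ (S₂ : Subgroup G)) := by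
  have hc := H51.isPConstrained_of_isPSolvable (h.pair S₁ S₂)
  have t1 := H55.IsSylowIn.inf_Opq (H8.isSylowIn_of_le S₁ (le_sup_left (b := (S₂ : Subgroup G))))
  have t2 := H55.IsSylowIn.inf_Opq (H8.isSylowIn_of_le S₂ (le_sup_right (a := (S₁ : Subgroup G))))
  have m := H55.inf_centralizer_le_Opq hc t1 (x := d₁)
    ⟨mem_sup_left h1.1, fun y hy => (h1.2 y hy.1).symm⟩
  have n := le_norm_OO (p := p) ((S₁ : Subgroup G) ⊔ (S₂ : Subgroup G))
  rw [H55.Opq_eq_sup t2, ← SetLike.mem_coe, coe_mul_of_right_le_normalizer_left _ _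
    ((inf_le_left.trans le_sup_right).trans n)] at m
  obtain ⟨o, ho, t, ht, rfl⟩ := m
  have e : (o * t)⁻¹ * d₂⁻¹ * (o * t) * d₂ = t⁻¹ * (o⁻¹ * (d₂⁻¹ * o * d₂⁻¹⁻¹)) * t⁻¹⁻¹ := by
    rw [inv_inv, inv_inv, mul_assoc _ (o * t), mul_assoc o, ← h2.2 t ht.1]; group
  rw [e]
  exact (mem_normalizer_iff.1 (n (inv_mem (mem_sup_right ht.1))) _).1 (mul_mem (inv_mem ho)
    ((mem_normalizer_iff.1 (n (inv_mem (mem_sup_right h2.1))) _).1 ho))

theorem cen {P : Sylow p G} {z : G} (hz : Cen P z) (d : G) (hd : IsConj z d) (T : Subgroup G)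
    (hT : IsPGroup p T) (hc : ∀ y ∈ T, d * y = y * d) : ∃ S : Sylow p G, T ≤ S ∧ Cen S d := by
  obtain ⟨g, rfl⟩ := isConj_iff.1 hd
  have h1 := cen_smul hz g
  obtain ⟨k, hk, e⟩ := (H8.isSylowIn_of_le _ (cen_le h1)).exists_conj_le hT
    fun y hy => mem_centralizer_singleton_iff.2 (hc y hy).symm
  refine ⟨k⁻¹ • g • P, fun y hy => ?_, ?_⟩
  · rw [Sylow.coe_subgroup_smul, H8.mem_conj_smul, inv_inv]
    exact e (H8.conj_mem_conj_smul.2 hy)
  · have := cen_smul h1 k⁻¹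
    rwa [mem_centralizer_singleton_iff.1 (inv_mem hk), mul_inv_cancel_right] at this

theorem norm_of_gen {P : Subgroup G} {z m : G}
    (h : ∀ x ∈ P, IsConj z x → m * x * m⁻¹ ∈ AA P z) : m ∈ normalizer (AA P z : Set G) :=
  H8.mem_normalizer_of_conj_smul_le (map_le_iff_le_comap.2
    ((closure_le _).2 fun x hx => h x hx.1 hx.2))

omit [Finite G] in
theorem isConj_conj {z x : G} (h : IsConj z x) (g : G) : IsConj z (g * x * g⁻¹) :=
  h.trans (isConj_iff.2 ⟨g, rfl⟩)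

theorem wc {P : Sylow p G} {z : G} (S : Sylow p G) (hS : AA P z ≤ S) (x : G)
    (hx : x ∈ (S : Subgroup G)) (hc : IsConj z x) : x ∈ AA P z := by
  obtain ⟨g, rfl⟩ := MulAction.exists_smul_eq G P S
  have e : {x | x ∈ (P : Subgroup G) ∧ IsConj z x} =
      {x | x ∈ ((g • P : Sylow p G) : Subgroup G) ∧ IsConj z x} := by
    refine Set.eq_of_subset_of_ncard_le (fun y hy => ⟨hS (mem_AA hy.1 hy.2), hy.2⟩)
      (Set.ncard_le_ncard_of_injOn (fun y => g⁻¹ * y * g) (fun y hy => ⟨?_, ?_⟩)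
        fun y _ y' _ e => by simpa using e)
    · have := hy.1
      rwa [Sylow.coe_subgroup_smul, H8.mem_conj_smul] at this
    · simpa using isConj_conj hy.2 g⁻¹
  exact subset_closure (e.ge ⟨hx, hc⟩)

theorem l1 : L1Stmt.{u} := by
  intro p _ G _ _ P z h _ hz
  have gen : ∀ d ∈ (P : Subgroup G), IsConj z d → ∀ d' ∈ (P : Subgroup G), IsConj z d' →
      d * d' = d' * d := fun d hd c d' hd' c' => by
    obtain ⟨S₁, -, h1⟩ := cen hz d c ⊥ IsPGroup.of_bot fun y hy => by rw [mem_bot.1 hy]; simp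
    obtain ⟨S₂, -, h2⟩ := cen hz d' c' ⊥ IsPGroup.of_bot fun y hy => by rw [mem_bot.1 hy]; simp
    have := (H55.inf_eq_bot_of_not_dvd P.isPGroup' (H55.Opp_not_dvd p _)).le (mem_inf.2
      ⟨mul_mem (mul_mem (mul_mem (inv_mem hd) (inv_mem hd')) hd) hd', pair h S₁ S₂ d d' h1 h2⟩)
    rw [mem_bot, mul_assoc, ← mul_inv_rev, inv_mul_eq_one] at this
    exact this.symm
  have comm : ∀ a ∈ AA P z, ∀ b ∈ AA P z, a * b = b * a := fun a ha b hb =>
    mem_centralizer_singleton_iff.1 ((closure_le (CC b)).2 (fun d hd =>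
      mem_centralizer_singleton_iff.2 (mem_centralizer_singleton_iff.1 ((closure_le (CC d)).2
        (fun d' hd' => mem_centralizer_singleton_iff.2 (gen d' hd'.1 hd'.2 d hd.1 hd.2)) hb)).symm) ha)
  refine ⟨pair h, cen hz, comm, wc, fun S hS s hs => norm_of_gen fun x hx c => wc S hS _
    (mul_mem (mul_mem hs (hS (mem_AA hx c))) (inv_mem hs)) (isConj_conj c s), fun x hx c => ?_⟩
  obtain ⟨S₁, h1, h2⟩ := cen hz x c _ (P.isPGroup'.to_le (AA_le _ z)) (comm x hx)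
  obtain ⟨g, rfl⟩ := isConj_iff.1 c
  obtain ⟨k, hk, e⟩ := (H8.isSylowIn_of_le _ (cen_le (cen_smul hz g))).exists_conj_eq
    (H8.isSylowIn_of_le _ (cen_le h2))
  refine ⟨k * g, norm_of_gen fun y hy c' => wc S₁ h1 _ ?_ (isConj_conj c' _), ?_⟩
  · rw [← e, Sylow.coe_subgroup_smul, H8.conj_smul_conj_smul]
    exact H8.conj_mem_conj_smul.2 hy
  · have := mem_centralizer_singleton_iff.1 hk
    calc k * g * z * (k * g)⁻¹ = k * (g * z * g⁻¹) * k⁻¹ := by group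
      _ = _ := by rw [this, mul_inv_cancel_right]

end Cfsg.Agent.H37.PS
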