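import Cfsg.Agent.H53.TCKit

/-! Project TC, the small cases for `r = 3`: the argument given the support lemma. -/

set_option autoImplicit false
set_option linter.unusedSectionVars false

namespace Cfsg.Agent.H37.TcE

open Cfsg.Agent.H53.TC Cfsg.Agent.H53.MW

universe u

section add

variable {W : Type*} [AddCommGroup W]

theorem mem_sup3 (h3 : ∀ w : W, 3 • w = 0) {A : AddSubgroup W} {a w : W}
    (hw : w ∈ A ⊔ AddSubgroup.zmultiples a) : ∃ i : Fin 3, w - (i : ℕ) • a ∈ A := by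
  obtain ⟨d, hd, _, ⟨m, rfl⟩, rfl⟩ := AddSubgroup.mem_sup.1 hw
  refine ⟨⟨(m % 3).toNat, by omega⟩, ?_⟩
  have : m • a = (m % 3).toNat • a := by
    conv_lhs => rw [← Int.emod_add_mul_ediv m 3, add_zsmul, mul_comm, mul_zsmul,
      show (3 : ℤ) • a = 0 from (natCast_zsmul a 3).trans (h3 a), smul_zero, add_zero]
    rw [← natCast_zsmul, Int.toNat_of_nonneg (by omega)]
  dsimp only
  rwa [this, add_sub_cancel_right]

theorem dvd3 (h3 : ∀ w : W, 3 • w = 0) {A : AddSubgroup W} {a : W} (ha : a ∉ A) {m : ℤ}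
    (hm : m • a ∈ A) : 3 ∣ m := by
  by_contra c
  have e : (3 : ℤ) • a = 0 := (natCast_zsmul a 3).trans (h3 a)
  obtain ⟨k, hk⟩ : 3 ∣ m * m - 1 := by
    have : m % 3 = 1 ∨ m % 3 = 2 := by omega
    refine Int.dvd_of_emod_eq_zero ?_
    rcases this with h | h <;> simp [Int.sub_emod, Int.mul_emod, h]
  have := A.zsmul_mem hm m
  rw [← mul_zsmul, show m * m = k * 3 + 1 by omega, add_zsmul, mul_zsmul, e, smul_zero, zero_add,
    one_zsmul] at this
  exact ha this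

theorem card_sup3 (h3 : ∀ w : W, 3 • w = 0) {A : AddSubgroup W} {a : W} (ha : a ∉ A) :
    Nat.card (A ⊔ AddSubgroup.zmultiples a : AddSubgroup W) = 3 * Nat.card A := by
  rw [← Nat.card_fin 3, ← Nat.card_prod]
  symm
  refine Nat.card_congr (Equiv.ofBijective (fun p => ⟨p.2 + (p.1 : ℕ) • a, AddSubgroup.add_mem_sup
    p.2.2 (AddSubgroup.nsmul_mem _ (AddSubgroup.mem_zmultiples a) _)⟩) ⟨?_, ?_⟩)
  · rintro ⟨i, d⟩ ⟨j, d'⟩ e
    have e : (d : W) + (i : ℕ) • a = d' + (j : ℕ) • a := congrArg Subtype.val e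
    have h1 : (((i : ℕ) : ℤ) - (j : ℕ)) • a ∈ A := by
      rw [sub_zsmul, natCast_zsmul, natCast_zsmul, ← sub_eq_add_neg,
        show (i : ℕ) • a - (j : ℕ) • a = d' - d by rw [sub_eq_sub_iff_add_eq_add, ← e, add_comm]]
      exact A.sub_mem d'.2 d.2
    obtain rfl : i = j := Fin.ext (by have := dvd3 h3 ha h1; omega)
    rw [Subtype.ext (add_right_cancel e)]
  · rintro ⟨w, hw⟩
    obtain ⟨i, hi⟩ := mem_sup3 h3 hw
    exact ⟨⟨i, _, hi⟩, Subtype.ext (sub_add_cancel _ _)⟩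

end add

variable {L V K W : Type u} [Group L] [AddCommGroup V] [DistribMulAction L V] [Field K]
  [Module K V] [AddCommGroup W] [DistribMulAction L W] {σ : L →* RingAut K} {G T : Subgroup L}
  {π : L → W} {b : W → W → Kˣ}

/-- the support lemma for `D` and `x` -/
def Supp (σ : L →* RingAut K) (T : Subgroup L) (π : L → W) (D : AddSubgroup W) (x : V) : Prop :=
  ∀ (n : ℕ) (t : Fin n → L) (c : Fin n → K), (∀ i, t i ∈ T) →
    (∀ i j, π (t i) - π (t j) ∈ D → i = j) → (∀ i, c i ≠ 0) → ∀ h : L, h • x = x →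
    h • ∑ i, c i • t i • x = ∑ i, c i • t i • x → (∀ d ∈ D, h • d ∈ D) ∧
      ∀ i, ∃ j, h • π (t i) - π (t j) ∈ D ∧ σ h (c i) • h • t i • x = c j • t j • x

variable (N : Nrm L V K W σ G T π b 3)
include N

theorem pi_one : π 1 = 0 := by
  have := N.mul 1 (one_mem _) 1 (one_mem _)
  rw [mul_one] at this
  exact left_eq_add.1 this

theorem pi_inv {t : L} (ht : t ∈ T) : π t⁻¹ = -π t := by
  rw [eq_neg_iff_add_eq_zero, ← N.mul _ (inv_mem ht) _ ht, inv_mul_cancel, pi_one N]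

theorem b_cube (u v : W) : b u v ^ 3 = 1 := by rw [← N.alt.nsmul_left, N.rW, N.alt.zero_left]

theorem exists_ζ : ∃ ζ : K, ζ ≠ 0 ∧ ∀ h : L, σ h ζ = ζ → ∀ u v, b (h • u) (h • v) = b u v := by
  obtain ⟨w, hw⟩ := N.nt
  obtain ⟨w', h1⟩ : ∃ w', b w w' ≠ 1 := by
    by_contra! c
    exact hw (N.alt.nd w c)
  have cube : ∀ u v, (b u v : K) ^ 3 = 1 := fun u v => by
    rw [← Units.val_pow_eq_pow_val, b_cube N, Units.val_one]
  refine ⟨b w w', Units.ne_zero _, fun h e u v => Units.ext ?_⟩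
  have h2 : (b w w' : K) - 1 ≠ 0 := fun c => h1 (Units.ext (sub_eq_zero.1 c))
  have h3 := cube w w'
  have h4 := cube u v
  rw [N.bs]
  generalize (b w w' : K) = ζ at *
  generalize (b u v : K) = β at *
  have h5 : ζ ^ 2 + ζ + 1 = 0 := mul_left_cancel₀ h2 (by linear_combination h3)
  have h6 : (β - 1) * ((β - ζ) * (β - ζ ^ 2)) = 0 := by
    linear_combination h4 + (β - β ^ 2) * h5 + (β - 1) * h3
  rcases mul_eq_zero.1 h6 with c | c
  · rw [sub_eq_zero.1 c, map_one]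
  rcases mul_eq_zero.1 c with c | c
  · rw [sub_eq_zero.1 c, e]
  · rw [sub_eq_zero.1 c, map_pow, e]

variable {D : AddSubgroup W} (hD : N.alt.perp D = D)
include hD

theorem b_DD {d d' : W} (h : d ∈ D) (h' : d' ∈ D) : b d d' = 1 := (hD.ge h') d h

theorem fix_D {h : L} (hb : ∀ u v, b (h • u) (h • v) = b u v) (h1 : ∀ d ∈ D, h • d ∈ D)
    (h2 : ∀ w, h • w - w ∈ D) {d : W} (hd : d ∈ D) : h • d = d := by
  refine sub_eq_zero.1 (N.alt.nd _ fun w => ?_)
  have := hb d w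
  rw [← sub_add_cancel (h • w) w, N.alt.r, b_DD N hD (h1 d hd) (h2 w), one_mul] at this
  rw [sub_eq_add_neg, N.alt.l, N.alt.neg_left, this, mul_inv_cancel]

theorem case3 [Finite W] {x : V} (hx : x ≠ 0) (S : Supp σ T π D x) {a : W} (ha : a ∉ D)
    (hg : D ⊔ AddSubgroup.zmultiples a = ⊤) (hc : Nat.card D ≤ 4) : Idx L V W := by
  classical
  obtain ⟨ζ, h0, hζ⟩ := exists_ζ N
  obtain ⟨t, ht, rfl⟩ := N.surj a
  have := Fintype.ofFinite D
  obtain ⟨e⟩ : Nonempty (D ↪ Fin 4) := Function.Embedding.nonempty_of_card_le (by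
    rwa [Fintype.card_fin, ← Nat.card_eq_fintype_card])
  have S' := S 2 ![1, t] ![ζ, 1] (by simp [ht]) (by simpa [Fin.forall_fin_two, pi_one N] using ha)
    (by simp [h0])
  generalize ∑ i, ![ζ, 1] i • ![1, t] i • x = y at S'
  have key : ∀ h : L, h • x = x → h • y = y → h • π t - π t ∈ D ∧ ∀ d ∈ D, h • d = d :=
    fun h h1 h2 => by
    obtain ⟨a1, a2⟩ := S' h h1 h2
    obtain ⟨a3, -⟩ := S' h⁻¹ (inv_smul_eq_iff.2 h1.symm) (inv_smul_eq_iff.2 h2.symm)
    have a4 : σ h ζ = ζ := by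
      obtain ⟨j, e1, e2⟩ := a2 0
      fin_cases j
      · simpa [h1, smul_left_inj hx] using e2
      · exact absurd (by simpa [pi_one N] using e1) ha
    have a5 : h • π t - π t ∈ D := by
      obtain ⟨j, e1, -⟩ := a2 1
      fin_cases j
      · exact absurd (by simpa [pi_one N] using a3 _ e1) ha
      · exact e1
    refine ⟨a5, fun d => fix_D N hD (hζ h a4) a1 fun w => ?_⟩
    obtain ⟨i, hi⟩ := mem_sup3 N.rW (hg.ge (AddSubgroup.mem_top w))
    have := D.add_mem (D.sub_mem (a1 _ hi) hi) (D.nsmul_mem a5 i)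
    convert this using 1
    rw [smul_sub, smul_comm h, smul_sub]; abel
  refine ⟨x, y, fun h => if k : h • π t - π t ∈ D then e ⟨_, k⟩ else 0,
    fun h h' h1 h2 h3 h4 h5 w => ?_⟩
  · obtain ⟨a1, a2⟩ := key h h1 h2
    obtain ⟨a3, a4⟩ := key h' h3 h4
    simp only [dif_pos a1, dif_pos a3, e.injective.eq_iff, Subtype.mk.injEq, sub_left_inj] at h5
    obtain ⟨i, hi⟩ := mem_sup3 N.rW (hg.ge (AddSubgroup.mem_top w))
    rw [← sub_add_cancel w ((i : ℕ) • π t), smul_add, smul_add, a2 _ hi, a4 _ hi, smul_comm h,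
      smul_comm h', h5]

omit N hD in
/-- first coordinates -/
def cm : Fin 6 → ℤ := ![0, 1, 0, 1, -1, 1]
omit N hD in
/-- second coordinates -/
def cn : Fin 6 → ℤ := ![0, 0, 1, 1, 1, -1]

omit N hD in
theorem c_inj : ∀ i j, 3 ∣ cm i - cm j → 3 ∣ cn i - cn j → i = j := by decide

omit N hD in
theorem c_perm : ∀ j1 j2, j1 ≠ 0 → j2 ≠ 0 →
    (∃ j, j ≠ 0 ∧ 3 ∣ cm j1 + cm j2 - cm j ∧ 3 ∣ cn j1 + cn j2 - cn j) →
    (∃ j, j ≠ 0 ∧ 3 ∣ cm j2 - cm j1 - cm j ∧ 3 ∣ cn j2 - cn j1 - cn j) →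
    (∃ j, j ≠ 0 ∧ 3 ∣ cm j1 - cm j2 - cm j ∧ 3 ∣ cn j1 - cn j2 - cn j) →
    (j1 = 1 ∧ j2 = 2) ∨ (j1 = 2 ∧ j2 = 1) := by
  intro j1 j2
  fin_cases j1 <;> fin_cases j2 <;> decide

omit hD in
theorem comm_fix {x : V} (hx : x ≠ 0) {s t : L} (hs : s ∈ T) (ht : t ∈ T) (e : s • x = x)
    (e' : s • t • x = t • x) : b (π s) (π t) = 1 := by
  have := N.hb s hs t ht x
  rw [e, e'] at this
  have h1 : t • x ≠ 0 := (smul_ne_zero_iff_ne t).2 hx
  refine Units.ext ((smul_left_inj h1).1 ?_)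
  rw [← this, Units.val_one, one_smul]

theorem case9 [Finite W] {x : V} (hx : x ≠ 0) (S : Supp σ T π D x) {a1 a2 : W}
    (ind : ∀ i j : ℤ, i • a1 + j • a2 ∈ D → 3 ∣ i ∧ 3 ∣ j)
    (gen : ∀ w, ∃ i j : ℕ, w - (i • a1 + j • a2) ∈ D) : Idx L V W := by
  classical
  obtain ⟨ζ, h0, hζ⟩ := exists_ζ N
  obtain ⟨t1, m1, rfl⟩ := N.surj a1
  obtain ⟨t2, m2, rfl⟩ := N.surj a2
  let t : Fin 6 → L := ![1, t1, t2, t1 * t2, t2 * t1⁻¹, t1 * t2⁻¹]
  have ht : ∀ i, t i ∈ T := by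
    simp [t, Fin.forall_fin_succ, m1, m2, mul_mem, inv_mem]
  have p3 := N.mul _ m1 _ m2
  have p4 := N.mul _ m2 _ (inv_mem m1)
  have p5 := N.mul _ m1 _ (inv_mem m2)
  rw [pi_inv N m1] at p4
  rw [pi_inv N m2] at p5
  have hπ : ∀ i, π (t i) = cm i • π t1 + cn i • π t2 := fun i => by
    fin_cases i <;> simp [t, cm, cn, pi_one N, p3, p4, p5, add_comm]
  have inj : ∀ i j, π (t i) - π (t j) ∈ D → i = j := fun i j e => by
    rw [hπ, hπ, add_sub_add_comm, ← sub_smul, ← sub_smul] at e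
    exact c_inj i j (ind _ _ e).1 (ind _ _ e).2
  have S' := S 6 t ![ζ, 1, 1, 1, 1, 1] ht inj (by simp [Fin.forall_fin_succ, h0])
  generalize ∑ i, ![ζ, 1, 1, 1, 1, 1] i • t i • x = y at S'
  have e0 : π (t 0) = 0 := pi_one N
  have dich : ∀ h : L, h • x = x → h • y = y → (h • π t1 - π t1 ∈ D ∧ h • π t2 - π t2 ∈ D) ∨
      (h • π t1 - π t2 ∈ D ∧ h • π t2 - π t1 ∈ D) := fun h h1 h2 => by
    obtain ⟨-, a2⟩ := S' h h1 h2
    obtain ⟨a3, -⟩ := S' h⁻¹ (inv_smul_eq_iff.2 h1.symm) (inv_smul_eq_iff.2 h2.symm)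
    choose j hj _ using a2
    have n0 : ∀ i, i ≠ 0 → j i ≠ 0 := fun i hi e => by
      have := hj i
      rw [e, e0, sub_zero] at this
      exact hi (inj i 0 (by simpa [e0] using a3 _ this))
    have b1 : h • π t1 - π (t (j 1)) ∈ D := hj 1
    have b2 : h • π t2 - π (t (j 2)) ∈ D := hj 2
    have b3 : h • π (t1 * t2) - π (t (j 3)) ∈ D := hj 3
    have b4 : h • π (t2 * t1⁻¹) - π (t (j 4)) ∈ D := hj 4
    have b5 : h • π (t1 * t2⁻¹) - π (t (j 5)) ∈ D := hj 5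
    rw [p3, smul_add] at b3
    rw [p4, smul_add, smul_neg] at b4
    rw [p5, smul_add, smul_neg] at b5
    rcases c_perm (j 1) (j 2) (n0 1 (by decide)) (n0 2 (by decide))
      ⟨j 3, n0 3 (by decide), ind _ _ (by
        convert D.sub_mem b3 (D.add_mem b1 b2) using 1
        simp only [hπ, sub_smul, add_smul]; abel)⟩
      ⟨j 4, n0 4 (by decide), ind _ _ (by
        convert D.sub_mem b4 (D.sub_mem b2 b1) using 1
        simp only [hπ, sub_smul, add_smul]; abel)⟩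
      ⟨j 5, n0 5 (by decide), ind _ _ (by
        convert D.sub_mem b5 (D.sub_mem b1 b2) using 1
        simp only [hπ, sub_smul, add_smul]; abel)⟩ with
      ⟨c1, c2⟩ | ⟨c1, c2⟩ <;> rw [c1] at b1 <;> rw [c2] at b2
    exacts [.inl ⟨b1, b2⟩, .inr ⟨b1, b2⟩]
  have n12 : π t1 - π t2 ∉ D := fun e => absurd (inj 1 2 e) (by decide)
  have triv : ∀ k : L, k • x = x → k • y = y → k • π t1 - π t1 ∈ D → ∀ w : W, k • w = w := by
    intro k h1 h2 d1
    obtain ⟨a1, a2⟩ := S' k h1 h2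
    have d2 : k • π t2 - π t2 ∈ D := by
      rcases dich k h1 h2 with c | c
      · exact c.2
      · exact absurd (by convert D.sub_mem c.1 d1 using 1; abel) n12
    have dw : ∀ w, k • w - w ∈ D := fun w => by
      obtain ⟨i, j, e⟩ := gen w
      convert D.add_mem (D.sub_mem (a1 _ e) e) (D.add_mem (D.nsmul_mem d1 i) (D.nsmul_mem d2 j))
        using 1
      rw [smul_sub, smul_add, smul_comm k, smul_comm k j, smul_sub, smul_sub]; abel
    have fx : ∀ i, σ k (![ζ, 1, 1, 1, 1, 1] i) • k • t i • x = ![ζ, 1, 1, 1, 1, 1] i • t i • x :=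
      fun i => by
        obtain ⟨j, e1, e2⟩ := a2 i
        obtain rfl := inj i j (by convert D.sub_mem e1 (dw (π (t i))) using 1; abel)
        exact e2
    have hb := hζ k (by simpa [t, h1, smul_left_inj hx] using fx 0)
    have f1 : k • t1 • x = t1 • x := by simpa [t] using fx 1
    have f2 : k • t2 • x = t2 • x := by simpa [t] using fx 2
    have f3 : k • (t1 * t2) • x = (t1 * t2) • x := by simpa [t] using fx 3
    have f4 : k • (t2 * t1⁻¹) • x = (t2 * t1⁻¹) • x := by simpa [t] using fx 4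
    have f5 : k • (t1 * t2⁻¹) • x = (t1 * t2⁻¹) • x := by simpa [t] using fx 5
    have hk : k⁻¹ • x = x := inv_smul_eq_iff.2 h1.symm
    have st : ∀ u ∈ T, k • u • x = u • x → ∃ s ∈ T, s • x = x ∧ π s = k • π u - π u ∧
        k * u = u * s * k := fun u hu e => by
      have m := N.normal.conj_mem u hu k
      refine ⟨u⁻¹ * (k * u * k⁻¹), mul_mem (inv_mem hu) m, ?_, ?_, by group⟩
      · rw [mul_smul, mul_smul, mul_smul, hk, e, inv_smul_smul]
      · rw [N.mul _ (inv_mem hu) _ m, pi_inv N hu, N.conj k u hu, neg_add_eq_sub]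
    obtain ⟨s1, n1, g1, q1, r1⟩ := st t1 m1 f1
    obtain ⟨s2, n2, g2, q2, r2⟩ := st t2 m2 f2
    have v1 : k * t1⁻¹ = (t1 * s1)⁻¹ * k := by
      rw [mul_inv_eq_iff_eq_mul, mul_assoc, r1, inv_mul_cancel_left]
    have v2 : k * t2⁻¹ = (t2 * s2)⁻¹ * k := by
      rw [mul_inv_eq_iff_eq_mul, mul_assoc, r2, inv_mul_cancel_left]
    have i1 : s1⁻¹ • x = x := inv_smul_eq_iff.2 g1.symm
    have i2 : s2⁻¹ • x = x := inv_smul_eq_iff.2 g2.symm
    have u1 : b (π s1) (π t2) = 1 := comm_fix N hx n1 m2 g1 (by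
      rwa [← mul_smul, ← mul_assoc, r1, mul_assoc _ k, r2, mul_smul, mul_smul, mul_smul, mul_smul,
        h1, g2, mul_smul, smul_left_cancel_iff] at f3)
    have u2 : b (π s2) (π t1) = 1 := by
      have := hb (π t1) (π t2)
      rw [← sub_add_cancel (k • π t1) (π t1), ← sub_add_cancel (k • π t2) (π t2), N.alt.l, N.alt.r,
        N.alt.r, b_DD N hD d1 d2, ← q1, ← q2, u1, one_mul, one_mul, mul_eq_right,
        N.alt.swap, inv_eq_one] at this
      exact this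
    have u3 : b (π (s2 * s1⁻¹)) (π t1⁻¹) = 1 := comm_fix N hx (mul_mem n2 (inv_mem n1))
      (inv_mem m1) (by rw [mul_smul, i1, g2]) (by
      rwa [← mul_smul, show k * (t2 * t1⁻¹) = t2 * (s2 * s1⁻¹ * t1⁻¹) * k by
        rw [← mul_assoc, r2, mul_assoc _ k, v1]; group, mul_smul, h1,
        mul_smul, mul_smul t2, smul_left_cancel_iff, mul_smul] at f4)
    have u4 : b (π (s1 * s2⁻¹)) (π t2⁻¹) = 1 := comm_fix N hx (mul_mem n1 (inv_mem n2))
      (inv_mem m2) (by rw [mul_smul, i2, g1]) (by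
      rwa [← mul_smul, show k * (t1 * t2⁻¹) = t1 * (s1 * s2⁻¹ * t2⁻¹) * k by
        rw [← mul_assoc, r1, mul_assoc _ k, v2]; group, mul_smul, h1,
        mul_smul, mul_smul t1, smul_left_cancel_iff, mul_smul] at f5)
    rw [N.mul _ n2 _ (inv_mem n1), pi_inv N n1, pi_inv N m1, N.alt.neg_right, inv_eq_one, N.alt.l,
      u2, one_mul, N.alt.neg_left, inv_eq_one] at u3
    rw [N.mul _ n1 _ (inv_mem n2), pi_inv N n2, pi_inv N m2, N.alt.neg_right, inv_eq_one, N.alt.l,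
      u1, one_mul, N.alt.neg_left, inv_eq_one] at u4
    have z0 : ∀ d ∈ D, b d (π t1) = 1 → b d (π t2) = 1 → d = 0 := fun d hd c1 c2 =>
      N.alt.nd _ fun w => by
        obtain ⟨i, j, e⟩ := gen w
        rw [← sub_add_cancel w (i • π t1 + j • π t2), N.alt.r, b_DD N hD hd e, N.alt.r,
          N.alt.swap, N.alt.nsmul_left, N.alt.swap, c1, N.alt.swap, N.alt.nsmul_left, N.alt.swap,
          c2]
        simp
    have z1 := sub_eq_zero.1 (z0 _ d1 (q1 ▸ u3) (q1 ▸ u1))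
    have z2 := sub_eq_zero.1 (z0 _ d2 (q2 ▸ u2) (q2 ▸ u4))
    intro w
    obtain ⟨i, j, e⟩ := gen w
    rw [← sub_add_cancel w (i • π t1 + j • π t2), smul_add, fix_D N hD hb a1 dw e, smul_add,
      smul_comm k, smul_comm k j, z1, z2]
  refine ⟨x, y, fun h => if h • π t1 - π t1 ∈ D then 0 else 1, fun h h' h1 h2 h3 h4 h5 w => ?_⟩
  have k1 : (h'⁻¹ * h) • x = x := by rw [mul_smul, h1, inv_smul_eq_iff, h3]
  have k2 : (h'⁻¹ * h) • y = y := by rw [mul_smul, h2, inv_smul_eq_iff, h4]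
  have := triv _ k1 k2 ?_ w
  · rwa [mul_smul, inv_smul_eq_iff] at this
  obtain ⟨a3, -⟩ := S' h'⁻¹ (inv_smul_eq_iff.2 h3.symm) (inv_smul_eq_iff.2 h4.symm)
  suffices e : h • π t1 - h' • π t1 ∈ D by simpa [smul_sub, mul_smul] using a3 _ e
  by_cases c : h • π t1 - π t1 ∈ D <;> by_cases c' : h' • π t1 - π t1 ∈ D
  · convert D.sub_mem c c' using 1; abel
  · simp [c, c'] at h5
  · simp [c, c'] at h5
  · convert D.sub_mem ((dich h h1 h2).resolve_left fun e => c e.1).1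
      ((dich h' h3 h4).resolve_left fun e => c' e.1).1 using 1; abel

theorem idx_of [Finite W] (hc : Nat.card W ≤ 81) {x : V} (hx : x ≠ 0) (S : Supp σ T π D x) :
    Idx L V W := by
  have hW := N.alt.card_mul D
  rw [hD] at hW
  obtain ⟨a1, h1⟩ : ∃ a, a ∉ D := by
    by_contra! c
    obtain ⟨w, hw⟩ := N.nt
    exact hw (N.alt.nd w fun y => b_DD N hD (c w) (c y))
  have c1 := card_sup3 N.rW h1
  have pos : 0 < Nat.card D := Nat.card_pos
  by_cases e : D ⊔ AddSubgroup.zmultiples a1 = ⊤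
  · refine case3 N hD hx S h1 e ?_
    rw [e, AddSubgroup.card_top, ← hW] at c1
    have := Nat.eq_of_mul_eq_mul_right pos c1
    omega
  obtain ⟨a2, h2⟩ : ∃ a, a ∉ D ⊔ AddSubgroup.zmultiples a1 := by
    by_contra! c
    exact e (eq_top_iff.2 fun w _ => c w)
  have c2 := card_sup3 N.rW h2
  have e2 : D ⊔ AddSubgroup.zmultiples a1 ⊔ AddSubgroup.zmultiples a2 = ⊤ :=
    AddSubgroup.eq_top_of_le_card _ (by
      rw [c2, c1, ← hW]
      have : Nat.card D ≤ 9 := by nlinarith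
      nlinarith)
  refine case9 N hD hx S (a1 := a1) (a2 := a2) (fun i j h => ?_) fun w => ?_
  · have m : i • a1 ∈ D ⊔ AddSubgroup.zmultiples a1 :=
      AddSubgroup.mem_sup_right (AddSubgroup.zsmul_mem_zmultiples _ _)
    obtain ⟨k, rfl⟩ := dvd3 N.rW h2 ((AddSubgroup.add_mem_cancel_left _ m).1
      (AddSubgroup.mem_sup_left h))
    rw [mul_comm, mul_zsmul, show (3 : ℤ) • a2 = 0 from (natCast_zsmul a2 3).trans (N.rW a2),
      smul_zero, add_zero] at h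
    exact ⟨dvd3 N.rW h1 h, Dvd.intro _ rfl⟩
  · obtain ⟨j, hj⟩ := mem_sup3 N.rW (e2.ge (AddSubgroup.mem_top w))
    obtain ⟨i, hi⟩ := mem_sup3 N.rW hj
    exact ⟨i, j, by convert hi using 1; abel⟩

omit N hD in
/-- **ENC-3** -/
theorem enc3 : Enc3Stmt.{u} := by
  intro L V K W _ _ _ _ _ _ _ _ _ _ _ _ σ G T π b r N hr hc
  subst hr
  obtain ⟨D, -, hD⟩ := N.alt.exists_lagr_le ⊥ bot_le
  obtain ⟨x, hx, he⟩ := N.toAmb.exists_vec (by decide) hD.ge
  exact .inl (idx_of N hD hc hx fun n t c ht inj hc h hh hy =>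
    ⟨fun d hd => N.smul_mem hD hx he hh hd, fun i => N.supp hD hx he t ht inj c hc hh hy i⟩)

end Cfsg.Agent.H37.TcE
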