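import Cfsg.Agent.H42.VpDefs

/-! Project VP, piece I2. -/

set_option autoImplicit false

namespace Cfsg.Agent.H37.VpI2

open Subgroup MulAction Cfsg.Agent.H42.Vp

universe u

theorem jordan {H : Type u} [Group H] [Finite H] (C : Subgroup H)
    (h : ∀ k, ∃ g, g⁻¹ * k * g ∈ C) : C = ⊤ := by
  classical
  have := Fintype.ofFinite H
  have := Fintype.ofFinite (H ⧸ C)
  have := Fintype.ofFinite (Quotient (orbitRel H (H ⧸ C)))
  have h1 := sum_card_fixedBy_eq_card_orbits_mul_card_group H (H ⧸ C)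
  have h2 : Fintype.card (Quotient (orbitRel H (H ⧸ C))) ≤ 1 :=
    Fintype.card_le_one_iff_subsingleton.2 ((pretransitive_iff_subsingleton_quotient H _).1
      inferInstance)
  by_contra hC
  have h3 : ∑ _a : H, 1 < ∑ a : H, Fintype.card (fixedBy (H ⧸ C) a) := by
    refine Finset.sum_lt_sum (fun a _ => ?_) ⟨1, Finset.mem_univ _, ?_⟩
    · obtain ⟨g, hg⟩ := h a
      refine Fintype.card_pos_iff.2 ⟨⟨(g : H ⧸ C), ?_⟩⟩
      change ((a * g : H) : H ⧸ C) = g
      rw [eq_comm, QuotientGroup.eq, ← mul_assoc]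
      exact hg
    · rw [← Nat.card_eq_fintype_card, fixedBy_one_eq_univ, Nat.card_univ]
      exact one_lt_index_of_ne_top hC
  rw [h1, Finset.sum_const, Finset.card_univ, smul_eq_mul, mul_one] at h3
  have := Nat.mul_le_mul_right (Fintype.card H) h2
  omega

theorem i2 : I2Stmt.{u} := by
  intro G _ _ p hp K hK x hc ⟨m, hm⟩ h
  have : Fact p.Prime := ⟨hp⟩
  have h1 : ∀ n : ℕ, ∀ k ∈ K, ∃ a ∈ K, x ^ n * k * (x ^ n)⁻¹ = a * k * a⁻¹ := fun n k hk => by
    induction n with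
    | zero => exact ⟨1, one_mem _, by simp⟩
    | succ n ih =>
      obtain ⟨a, ha, e⟩ := ih
      obtain ⟨b, hb, e'⟩ := h k hk
      refine ⟨x * a * x⁻¹ * b, mul_mem (hK.conj_mem a ha x) hb, ?_⟩
      calc x ^ (n + 1) * k * (x ^ (n + 1))⁻¹ = x * (x ^ n * k * (x ^ n)⁻¹) * x⁻¹ := by group
        _ = x * a * x⁻¹ * (x * k * x⁻¹) * (x * a * x⁻¹)⁻¹ := by rw [e]; group
        _ = _ := by rw [e']; group
  have h2 : (centralizer {x}).subgroupOf K = ⊤ := jordan _ fun k => by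
    let Ω := {y : G // ∃ a ∈ K, y = a * k * a⁻¹}
    let _ : MulAction (zpowers x) Ω :=
      { smul := fun g y => ⟨g.1 * y.1 * g.1⁻¹, by
          obtain ⟨a, ha, e⟩ := y.2
          obtain ⟨n, hn⟩ := mem_powers_iff_mem_zpowers.2 g.2
          obtain ⟨b, hb, e'⟩ := h1 n y.1 (e ▸ mul_mem (mul_mem ha k.2) (inv_mem ha))
          refine ⟨b * a, mul_mem hb ha, ?_⟩
          rw [← show x ^ n = g.1 from hn, e', e]; group⟩
        one_smul := fun y => Subtype.ext (by
          change (1 : G) * y.1 * (1 : G)⁻¹ = y.1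
          simp)
        mul_smul := fun g g' y => Subtype.ext (by
          change g.1 * g'.1 * y.1 * (g.1 * g'.1)⁻¹ = g.1 * (g'.1 * y.1 * g'.1⁻¹) * g.1⁻¹
          group) }
    have hx : IsPGroup p (zpowers x) := fun g => ⟨m, Subtype.ext (by
      obtain ⟨n, hn⟩ := g.2
      change g.1 ^ p ^ m = 1
      rw [← hn, ← zpow_natCast, ← zpow_mul, mul_comm, zpow_mul, zpow_natCast, hm, one_zpow])⟩
    have hd : Nat.card Ω ∣ Nat.card K := by
      have e : Nat.card Ω = (stabilizer (ConjAct K) k).index := by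
        rw [index_stabilizer, ← Nat.card_coe_set_eq]
        refine (Nat.card_congr (Equiv.ofBijective (fun y : orbit (ConjAct K) k => (⟨y.1.1, by
          obtain ⟨a, e⟩ := y.2
          exact ⟨(ConjAct.ofConjAct a).1, (ConjAct.ofConjAct a).2,
            (congrArg Subtype.val e).symm⟩⟩ : Ω)) ⟨fun y z e => ?_, ?_⟩)).symm
        · exact Subtype.ext (Subtype.ext (congrArg (fun w : Ω => w.1) e))
        · rintro ⟨_, a, ha, rfl⟩
          exact ⟨⟨_, ConjAct.toConjAct ⟨a, ha⟩, rfl⟩, rfl⟩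
      rw [e]
      exact index_dvd_card _
    obtain ⟨⟨y, a, ha, rfl⟩, hy⟩ := hx.nonempty_fixed_point_of_prime_not_dvd_card Ω fun hp' =>
      hp.one_lt.ne' (hc.symm.eq_one_of_dvd (hp'.trans hd))
    have e : x * (a * k * a⁻¹) * x⁻¹ = a * k * a⁻¹ :=
      congrArg Subtype.val (hy ⟨x, mem_zpowers x⟩)
    refine ⟨(⟨a, ha⟩ : K)⁻¹, mem_subgroupOf.2 (mem_centralizer_singleton_iff.2 ?_)⟩
    rw [inv_inv]
    exact (mul_inv_eq_iff_eq_mul.1 e).symm
  intro k hk
  exact mem_centralizer_singleton_iff.1 (mem_subgroupOf.1 (h2.ge (mem_top (⟨k, hk⟩ : K))))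

end Cfsg.Agent.H37.VpI2
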